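import Mathlib
import Cfsg.Prelude.Def_Local
import Cfsg.Agent.Lib.Cores
import Cfsg.Agent.Lib.PSolvable
import Cfsg.Agent.GH.C2GrowG

/-!
# `{p, q}`-subgroups of `p`-solvable groups

A finite `p`-solvable group of order divisible by `q ≠ p` has a `{p, q}`-subgroup containing a
given Sylow `p`-subgroup and of order divisible by `q`.
-/

set_option autoImplicit false

open Subgroup Cfsg

namespace Cfsg.Agent.H586.PQSub

universe u

theorem card_comap {A B : Type*} [Group A] [Group B] [Finite A] (f : A →* B)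
    (hf : Function.Surjective f) (X : Subgroup B) :
    Nat.card (X.comap f) = Nat.card f.ker * Nat.card X := by
  have hle : f.ker ≤ X.comap f := ker_le_comap f X
  have h1 := Subgroup.card_mul_index (f.ker.subgroupOf (X.comap f))
  have h2 : Nat.card (f.ker.subgroupOf (X.comap f)) = Nat.card f.ker :=
    Nat.card_congr (subgroupOfEquivOfLe hle).toEquiv
  have h3 : (f.ker.subgroupOf (X.comap f)).index = Nat.card X := by
    have h5 := Subgroup.relIndex_ker (K := X.comap f) f
    rw [map_comap_eq_self_of_surjective hf] at h5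
    exact h5
  rw [← h1, h2, h3]

theorem frattini_case {p q : ℕ} [hp : Fact p.Prime] [hq : Fact q.Prime] {A : Type*} [Group A]
    [Finite A] (D : Subgroup A) [D.Normal] (hpD : ¬ p ∣ Nat.card D) (hqD : q ∣ Nat.card D) :
    ∃ X : Subgroup A, (∀ r : ℕ, r.Prime → r ∣ Nat.card X → r = p ∨ r = q) ∧
        q ∣ Nat.card X ∧ ¬ p ∣ X.index := by
  obtain ⟨Q⟩ : Nonempty (Sylow q ↥D) := inferInstance
  have hfr : normalizer (((Q : Subgroup ↥D).map D.subtype : Subgroup A) : Set A) ⊔ D = ⊤ :=
    Sylow.normalizer_sup_eq_top Q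
  have hQ₁p : IsPGroup q ((Q : Subgroup ↥D).map D.subtype) := Q.2.map _
  have hQ₁c : q ∣ Nat.card ((Q : Subgroup ↥D).map D.subtype) := by
    rw [card_map_of_injective D.subtype_injective]
    exact Q.dvd_card_of_dvd_card hqD
  generalize (Q : Subgroup ↥D).map D.subtype = Q₁ at *
  obtain ⟨N, hN⟩ : ∃ N : Subgroup A, N = normalizer (Q₁ : Set A) := ⟨_, rfl⟩
  rw [← hN] at hfr
  have hidx : N.index ∣ Nat.card D := by
    have h0 : N ≤ normalizer (D : Set A) := by rw [normalizer_eq_top]; exact le_top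
    have h1 := Cfsg.Agent.GH.C2GrowG.card_sup h0
    rw [hfr, Subgroup.card_top, ← Subgroup.card_mul_index N, mul_assoc] at h1
    exact ⟨_, (Nat.eq_of_mul_eq_mul_left Nat.card_pos h1).symm⟩
  obtain ⟨P₁⟩ : Nonempty (Sylow p ↥N) := inferInstance
  have hP₂i : ¬ p ∣ ((P₁ : Subgroup ↥N).map N.subtype).index := by
    rw [Subgroup.index_map_subtype]
    intro h
    rcases hp.out.dvd_mul.1 h with h | h
    · exact P₁.not_dvd_index h
    · exact hpD (h.trans hidx)
  have hle : (P₁ : Subgroup ↥N).map N.subtype ≤ normalizer (Q₁ : Set A) := by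
    rw [← hN]; exact map_subtype_le _
  have hP₂p : IsPGroup p ((P₁ : Subgroup ↥N).map N.subtype) := P₁.2.map _
  generalize (P₁ : Subgroup ↥N).map N.subtype = P₂ at *
  have hcard := Cfsg.Agent.GH.C2GrowG.card_sup hle
  obtain ⟨a, ha⟩ := hP₂p.exists_card_eq
  obtain ⟨b, hb⟩ := hQ₁p.exists_card_eq
  refine ⟨P₂ ⊔ Q₁, ?_, ?_, ?_⟩
  · intro r hr hrd
    have h1 : r ∣ p ^ a * q ^ b := by
      rw [← ha, ← hb, ← hcard]; exact hrd.mul_right _
    rcases hr.dvd_mul.1 h1 with h | h
    · exact Or.inl ((Nat.prime_dvd_prime_iff_eq hr hp.out).1 (hr.dvd_of_dvd_pow h))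
    · exact Or.inr ((Nat.prime_dvd_prime_iff_eq hr hq.out).1 (hr.dvd_of_dvd_pow h))
  · exact hQ₁c.trans (Subgroup.card_dvd_of_le le_sup_right)
  · intro h
    exact hP₂i (h.trans (Subgroup.index_dvd_of_le le_sup_left))

theorem exists_pq (p q : ℕ) [hp : Fact p.Prime] [hq : Fact q.Prime] (hpq : p ≠ q) :
    ∀ n : ℕ, ∀ (A : Type u) [Group A] [Finite A], Nat.card A = n → IsPSolvable p A →
      q ∣ Nat.card A → ∃ X : Subgroup A, (∀ r : ℕ, r.Prime → r ∣ Nat.card X → r = p ∨ r = q) ∧
        q ∣ Nat.card X ∧ ¬ p ∣ X.index := by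
  intro n
  induction n using Nat.strong_induction_on with
  | _ n ih =>
  intro A _ _ hn hsol hdvd
  have hnt : Nontrivial A := by
    have : 1 < Nat.card A := lt_of_lt_of_le hq.out.one_lt (Nat.le_of_dvd Nat.card_pos hdvd)
    exact Finite.one_lt_card_iff_nontrivial.1 this
  -- the quotient by a nontrivial normal subgroup of order prime to `q`
  have hquo : ∀ (D : Subgroup A) [D.Normal], D ≠ ⊥ → ¬ q ∣ Nat.card D →
      ∃ X : Subgroup (A ⧸ D), (∀ r : ℕ, r.Prime → r ∣ Nat.card X → r = p ∨ r = q) ∧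
        q ∣ Nat.card X ∧ ¬ p ∣ X.index := by
    intro D hD hDne hqD
    have hcard := Subgroup.card_eq_card_quotient_mul_card_subgroup D
    refine ih (Nat.card (A ⧸ D)) ?_ (A ⧸ D) rfl ?_ ?_
    · rw [← hn, hcard]
      have h1 : 1 < Nat.card D := (Subgroup.one_lt_card_iff_ne_bot D).2 hDne
      have h2 : 0 < Nat.card (A ⧸ D) := Nat.card_pos
      nlinarith
    · exact Lib.PSolvable.IsPSolvable_of_surjective p hsol _ (QuotientGroup.mk'_surjective D)
    · rw [hcard] at hdvd
      exact (hq.out.dvd_mul.1 hdvd).resolve_right hqD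
  rcases Lib.PSolvable.exists_core_ne_bot p hsol with h | h
  · -- `O_p(A) ≠ 1`
    have hn := Lib.Cores.pCore_normal (G := A) p
    obtain ⟨k, hk⟩ := (Lib.Cores.pCore_isPGroup (G := A) p).exists_card_eq
    obtain ⟨X, hX1, hX2, hX3⟩ := hquo (pCore p A) h (by
      rw [hk]; intro h
      exact hpq ((Nat.prime_dvd_prime_iff_eq hq.out hp.out).1 (hq.out.dvd_of_dvd_pow h)).symm)
    have hsurj := QuotientGroup.mk'_surjective (pCore p A)
    have hc := card_comap (QuotientGroup.mk' (pCore p A)) hsurj X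
    rw [QuotientGroup.ker_mk', hk] at hc
    refine ⟨X.comap (QuotientGroup.mk' (pCore p A)), ?_, ?_, ?_⟩
    · intro r hr hrd
      rw [hc] at hrd
      rcases hr.dvd_mul.1 hrd with h | h
      · exact Or.inl ((Nat.prime_dvd_prime_iff_eq hr hp.out).1 (hr.dvd_of_dvd_pow h))
      · exact hX1 r hr h
    · rw [hc]; exact hX2.mul_left _
    · rw [index_comap_of_surjective _ hsurj]; exact hX3
  · -- `O_{p'}(A) ≠ 1`
    have hDn : (pPrimeCore p A).Normal := Lib.Cores.pPrimeCore_normal (G := A) p
    have hDc : (Nat.card (pPrimeCore p A)).Coprime p := Lib.Cores.pPrimeCore_coprime (G := A) p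
    generalize pPrimeCore p A = D at *
    have hpD : ¬ p ∣ Nat.card D := (Nat.Prime.coprime_iff_not_dvd hp.out).1 hDc.symm
    by_cases hqD : q ∣ Nat.card D
    · exact frattini_case D hpD hqD
    · -- Schur–Zassenhaus
      obtain ⟨X, hX1, hX2, hX3⟩ := hquo D h hqD
      have hsurj := QuotientGroup.mk'_surjective D
      set Y := X.comap (QuotientGroup.mk' D) with hY
      have hc := card_comap (QuotientGroup.mk' D) hsurj X
      rw [QuotientGroup.ker_mk'] at hc
      have hDY : D ≤ Y := by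
        have := ker_le_comap (QuotientGroup.mk' D) X
        rwa [QuotientGroup.ker_mk'] at this
      have h2 : Nat.card (D.subgroupOf Y) = Nat.card D :=
        Nat.card_congr (subgroupOfEquivOfLe hDY).toEquiv
      have h3 : (D.subgroupOf Y).index = Nat.card X := by
        have h1 := Subgroup.card_mul_index (D.subgroupOf Y)
        rw [h2, hc] at h1
        exact Nat.eq_of_mul_eq_mul_left Nat.card_pos h1
      have hcop : Nat.Coprime (Nat.card (D.subgroupOf Y)) (D.subgroupOf Y).index := by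
        rw [h2, h3]
        apply Nat.Coprime.symm
        apply Nat.Coprime.symm
        rw [Nat.coprime_iff_gcd_eq_one] 
        by_contra hne
        obtain ⟨r, hr, hrd⟩ := Nat.exists_prime_and_dvd hne
        rcases hX1 r hr (hrd.trans (Nat.gcd_dvd_right _ _)) with rfl | rfl
        · exact hpD (hrd.trans (Nat.gcd_dvd_left _ _))
        · exact hqD (hrd.trans (Nat.gcd_dvd_left _ _))
      obtain ⟨K, hK⟩ := Subgroup.exists_right_complement'_of_coprime hcop
      have hKcard : Nat.card K = Nat.card X := by rw [← h3, hK.symm.index_eq_card]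
      have hKidx : K.index = Nat.card D := by rw [hK.index_eq_card, h2]
      refine ⟨K.map Y.subtype, ?_, ?_, ?_⟩
      · rw [card_map_of_injective Y.subtype_injective, hKcard]; exact hX1
      · rw [card_map_of_injective Y.subtype_injective, hKcard]; exact hX2
      · rw [Subgroup.index_map_subtype, hKidx, hY, index_comap_of_surjective _ hsurj]
        intro h
        rcases hp.out.dvd_mul.1 h with h | h
        · exact hpD h
        · exact hX3 h

/-- **`{p, q}`-subgroups over a Sylow `p`-subgroup.** -/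
theorem exists_pq_over {p q : ℕ} [hp : Fact p.Prime] [hq : Fact q.Prime] (hpq : p ≠ q)
    {A : Type u} [Group A] [Finite A] (hsol : IsPSolvable p A) (hdvd : q ∣ Nat.card A)
    (P : Sylow p A) : ∃ X : Subgroup A, (P : Subgroup A) ≤ X ∧
      (∀ r : ℕ, r.Prime → r ∣ Nat.card X → r = p ∨ r = q) ∧ q ∣ Nat.card X := by
  obtain ⟨X, hX1, hX2, hX3⟩ := exists_pq p q hpq _ A rfl hsol hdvd
  let P₁ : Sylow p ↥X := default
  have hP₁ : IsPGroup p ((P₁ : Subgroup ↥X).map X.subtype) := P₁.2.map _
  have hi : ¬ p ∣ ((P₁ : Subgroup ↥X).map X.subtype).index := by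
    rw [Subgroup.index_map_subtype]
    intro h
    rcases hp.out.dvd_mul.1 h with h | h
    · exact P₁.not_dvd_index h
    · exact hX3 h
  let P₂ : Sylow p A := hP₁.toSylow hi
  obtain ⟨g, hg⟩ := MulAction.exists_smul_eq A P₂ P
  refine ⟨X.map (MulAut.conj g).toMonoidHom, ?_, ?_, ?_⟩
  · rw [← hg]
    have h1 : ((g • P₂ : Sylow p A) : Subgroup A) =
        ((P₁ : Subgroup ↥X).map X.subtype).map (MulAut.conj g).toMonoidHom := rfl
    rw [h1]
    exact map_mono (map_subtype_le _)
  · rw [card_map_of_injective (MulAut.conj g).injective]; exact hX1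
  · rw [card_map_of_injective (MulAut.conj g).injective]; exact hX2

end Cfsg.Agent.H586.PQSub
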