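import Cfsg.Agent.H586.AutPQ
import Cfsg.Agent.H586.PQSub
import Cfsg.Agent.Lib.SylowNormalInf
import Cfsg.Agent.PLocal.PSolvable

/-!
# Automizers of `p`-subgroups: from `{p, q}`-groups to `p`-solvable groups
-/

set_option autoImplicit false

open Subgroup Cfsg

namespace Cfsg.Agent.H586.AutMain

open Cfsg.Agent.H586.AutStar Cfsg.Agent.H586.AutPQ

universe u

/-- the centraliser of a normal `p`-subgroup containing its centraliser in a Sylow `p`-subgroup -/
theorem centralizer_structure {p : ℕ} [hp : Fact p.Prime] {Y : Type*} [Group Y] [Finite Y]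
    (H : Subgroup Y) [H.Normal] (P : Sylow p Y) (C : Subgroup Y) (hC : C = centralizer (H : Set Y))
    (hPC : (P : Subgroup Y) ⊓ C ≤ H) :
    ∃ K : Subgroup ↥C, K.Characteristic ∧ (Nat.card K).Coprime p ∧
      ∃ k : ℕ, K.index = p ^ k := by
  have hCn : C.Normal := by rw [hC]; infer_instance
  obtain ⟨K, h1, h2, -, -, h3⟩ := central_split (p := p) ((P : Subgroup Y).subgroupOf C) (by
      rintro ⟨x, hxC⟩ hx
      rw [mem_center_iff]
      rintro ⟨g, hg⟩
      apply Subtype.ext
      have hxH : x ∈ H := hPC ⟨hx, hxC⟩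
      rw [hC] at hg
      exact (mem_centralizer_iff.1 hg x hxH).symm)
    (Lib.SylowNormalInf.isPGroup_subgroupOf P C) (Lib.SylowNormalInf.not_dvd_relIndex P C)
  refine ⟨K, h1, h2, ?_⟩
  obtain ⟨k, hk⟩ := (Lib.SylowNormalInf.isPGroup_subgroupOf P C).exists_card_eq
  exact ⟨k, h3.trans hk⟩

theorem isPSolvable_of_index {p : ℕ} [hp : Fact p.Prime] {D : Type*} [Group D] [Finite D]
    (K : Subgroup D) [K.Normal] (hK : (Nat.card K).Coprime p) (hi : ∃ k : ℕ, K.index = p ^ k) :
    IsPSolvable p D := by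
  refine Lib.PSolvable.IsPSolvable_of_quotient p K (Or.inr hK) ?_
  apply Cfsg.Agent.PLocal.PSolvable.isPSolvable_of_isPGroup
  obtain ⟨k, hk⟩ := hi
  exact IsPGroup.of_card (n := k) (by rw [← hk, Subgroup.index])

theorem no_bad_Y {p q : ℕ} [hp : Fact p.Prime] [hq : Fact q.Prime] (hpq : p ≠ q)
    (h23 : ¬ ((p = 2 ∧ q = 3) ∨ (p = 3 ∧ q = 2))) {Y : Type u} [Group Y] [Finite Y]
    (H : Subgroup Y) [H.Normal] (hHp : IsPGroup p H) (P : Sylow p Y)
    (hstar : Star q (P : Subgroup Y))
    (hPC : (P : Subgroup Y) ⊓ centralizer (H : Set Y) ≤ H) (hsol : IsPSolvable p Y)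
    (hprimes : ∀ r : ℕ, r.Prime → r ∣ (centralizer (H : Set Y)).index → r = p ∨ r = q) :
    ¬ q ∣ (centralizer (H : Set Y)).index := by
  intro hdvd
  obtain ⟨C, hC⟩ : ∃ C : Subgroup Y, C = centralizer (H : Set Y) := ⟨_, rfl⟩
  rw [← hC] at hPC hprimes hdvd
  obtain ⟨K, hK1, hK2, k, hk⟩ := centralizer_structure H P C hC hPC
  have hCn : C.Normal := by rw [hC]; infer_instance
  have hKn : (K.map C.subtype).Normal := by
    have := hK1
    infer_instance
  have hKO : K.map C.subtype ≤ pPrimeCore p Y :=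
    Lib.Cores.le_pPrimeCore hKn (by rw [card_map_of_injective C.subtype_injective]; exact hK2)
  have hOn : (pPrimeCore p Y).Normal := Lib.Cores.pPrimeCore_normal p
  have hOc : (Nat.card (pPrimeCore p Y)).Coprime p := Lib.Cores.pPrimeCore_coprime p
  have hOC : pPrimeCore p Y ≤ C := by
    have h1 : pPrimeCore p Y ⊓ H = ⊥ := by
      obtain ⟨m, hm⟩ := hHp.exists_card_eq
      refine (Subgroup.disjoint_of_coprime_natCard ?_).eq_bot
      rw [hm]; exact hOc.pow_right m
    intro x hx
    rw [hC, mem_centralizer_iff]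
    intro y hy
    have h2 : x * y * x⁻¹ * y⁻¹ ∈ pPrimeCore p Y ⊓ H := by
      refine ⟨?_, ?_⟩
      · have h3 := hOn.conj_mem _ (inv_mem hx) y
        have h4 := mul_mem hx h3
        have h5 : x * (y * x⁻¹ * y⁻¹) = x * y * x⁻¹ * y⁻¹ := by group
        rwa [h5] at h4
      · exact H.mul_mem (Subgroup.Normal.conj_mem inferInstance y hy x) (H.inv_mem hy)
    rw [h1, mem_bot] at h2
    have h3 : x * y = y * x := by
      have := mul_inv_eq_one.1 h2
      rw [mul_inv_eq_iff_eq_mul] at this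
      exact this
    exact h3.symm
  have hidx : (pPrimeCore p Y).relIndex C * C.index = (pPrimeCore p Y).index :=
    Subgroup.relIndex_mul_index hOC
  have hrel : (pPrimeCore p Y).relIndex C ∣ p ^ k := by
    rw [← hk]
    have h1 : (K.map C.subtype).relIndex C = K.index := by
      rw [Subgroup.relIndex]
      congr 1
      exact comap_map_eq_self_of_injective C.subtype_injective K
    rw [← h1]
    exact Subgroup.relIndex_dvd_of_le_left C hKO
  have hsurj := QuotientGroup.mk'_surjective (pPrimeCore p Y)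
  refine not_dvd p q hpq h23 _ (Y ⧸ pPrimeCore p Y) rfl ?_ ?_ ?_ (P.mapSurjective hsurj) ?_ ?_
  · intro r hr hrd
    have h1 : r ∣ (pPrimeCore p Y).index := hrd
    rw [← hidx] at h1
    rcases hr.dvd_mul.1 h1 with h | h
    · exact Or.inl ((Nat.prime_dvd_prime_iff_eq hr hp.out).1 (hr.dvd_of_dvd_pow (h.trans hrel)))
    · exact hprimes r hr h
  · exact Lib.PSolvable.IsPSolvable_of_surjective p hsol _ hsurj
  · exact Lib.Cores.pPrimeCore_quotient_pPrimeCore p
  · have h1 : ((P.mapSurjective hsurj : Sylow p (Y ⧸ pPrimeCore p Y)) : Subgroup (Y ⧸ pPrimeCore p Y)) =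
        (P : Subgroup Y).map (QuotientGroup.mk' (pPrimeCore p Y)) := rfl
    rw [h1]
    exact hstar.map_of_coprime _ hsurj _ P.2 (by rw [QuotientGroup.ker_mk']; exact hOc)
  · have h1 : q ∣ (pPrimeCore p Y).index := by rw [← hidx]; exact hdvd.mul_left _
    exact h1

theorem no_bad_N {p q : ℕ} [hp : Fact p.Prime] [hq : Fact q.Prime] (hpq : p ≠ q)
    (h23 : ¬ ((p = 2 ∧ q = 3) ∨ (p = 3 ∧ q = 2))) {N : Type u} [Group N] [Finite N]
    (H : Subgroup N) [H.Normal] (hHp : IsPGroup p H) (P : Sylow p N)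
    (hstar : Star q (P : Subgroup N))
    (hPC : (P : Subgroup N) ⊓ centralizer (H : Set N) ≤ H)
    (hsol : IsPSolvable p (N ⧸ centralizer (H : Set N))) :
    ¬ q ∣ (centralizer (H : Set N)).index := by
  intro hdvd
  -- `N` is `p`-solvable
  have hsolN : IsPSolvable p N := by
    obtain ⟨K, hK1, hK2, hK3⟩ := centralizer_structure H P _ rfl hPC
    have := hK1
    have hKn : K.Normal := inferInstance
    exact Lib.PSolvable.IsPSolvable_of_extension p _ (isPSolvable_of_index K hK2 hK3) hsol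
  have hHP : H ≤ (P : Subgroup N) := hHp.le_sylow_of_normal P
  obtain ⟨C, hC⟩ : ∃ C : Subgroup N, C = centralizer (H : Set N) := ⟨_, rfl⟩
  have hCn : C.Normal := by rw [hC]; infer_instance
  have hsol' : IsPSolvable p (N ⧸ C) :=
    Lib.PSolvable.IsPSolvable_of_surjective p hsolN _ (QuotientGroup.mk'_surjective C)
  have hsurj := QuotientGroup.mk'_surjective C
  obtain ⟨X, hX1, hX2, hX3⟩ := Cfsg.Agent.H586.PQSub.exists_pq_over hpq hsol'
    (by rw [hC]; exact hdvd) (P.mapSurjective hsurj)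
  have hX1' : (P : Subgroup N).map (QuotientGroup.mk' C) ≤ X := hX1
  set Y : Subgroup N := X.comap (QuotientGroup.mk' C) with hY
  have hPY : (P : Subgroup N) ≤ Y := map_le_iff_le_comap.1 hX1'
  have hCY : C ≤ Y := by
    have := ker_le_comap (QuotientGroup.mk' C) X
    rwa [QuotientGroup.ker_mk'] at this
  have hHY : H ≤ Y := hHP.trans hPY
  have hcen : centralizer ((H.subgroupOf Y : Subgroup ↥Y) : Set ↥Y) = C.subgroupOf Y := by
    ext y
    rw [mem_subgroupOf, hC, mem_centralizer_iff, mem_centralizer_iff]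
    constructor
    · intro h x hx
      exact congrArg Subtype.val (h ⟨x, hHY hx⟩ hx)
    · intro h x hx
      exact Subtype.ext (h x hx)
  have hidx : (C.subgroupOf Y).index = Nat.card X := by
    have h5 := Subgroup.relIndex_ker (K := Y) (QuotientGroup.mk' C)
    rw [QuotientGroup.ker_mk', map_comap_eq_self_of_surjective hsurj] at h5
    exact h5
  have hPmap : ((P.subtype hPY : Sylow p ↥Y) : Subgroup ↥Y).map Y.subtype = (P : Subgroup N) :=
    map_subgroupOf_eq_of_le hPY
  have hnb := no_bad_Y hpq h23 (H.subgroupOf Y) (hHp.comap_of_injective Y.subtype Y.subtype_injective)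
    (P.subtype hPY) (Star.of_injective Y.subtype Y.subtype_injective _ (by rw [hPmap]; exact hstar))
    (by
      rw [hcen]
      rintro x ⟨hx1, hx2⟩
      rw [mem_subgroupOf]
      refine hPC ⟨hx1, ?_⟩
      rw [← hC]
      exact hx2)
    (Lib.PSolvable.IsPSolvable_of_injective p hsolN Y.subtype Y.subtype_injective)
  rw [hcen, hidx] at hnb
  exact hnb hX2 hX3

end Cfsg.Agent.H586.AutMain
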