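import Cfsg.Agent.H586.NoAbelianEight

/-!
# `2`-groups without noncyclic abelian subgroups of order `8` with an odd order action

`classify`: if `H` has odd order, normalises and does not centralise the `2`-group `Q`, and `Q`
has no noncyclic abelian subgroup of order `8`, then `Q` is a four-group or quaternion of order `8`.
-/

set_option autoImplicit false

namespace Cfsg.Agent.H586.NoAbelianEight

open Subgroup Cfsg.Agent.H586.OddAct

variable {G : Type*} [Group G]

/-- Elements of `Y` central modulo `A` in a larger `2`-group `N` normalising `Y`. -/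
theorem exists_fixed_mod [Finite G] (N Y A : Subgroup G) (hN : IsPGroup 2 ↥N) (hYN : Y ≤ N)
    (hNY : N ≤ normalizer (Y : Set G)) (h : ¬ Y ≤ A) :
    ∃ y ∈ Y, y ∉ A ∧ ∀ n ∈ N, n * y * n⁻¹ * y⁻¹ ∈ A := by
  have hf2 : Fact (Nat.Prime 2) := ⟨Nat.prime_two⟩
  have hnil : Group.IsNilpotent ↥N := hN.isNilpotent
  have hnor : (Y.subgroupOf N).Normal := (normal_subgroupOf_iff_le_normalizer hYN).mpr hNY
  obtain ⟨x, hx, hxA, hxg⟩ := exists_central_mod (A.subgroupOf N) (Y.subgroupOf N) (by
    intro hle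
    apply h
    intro y hy
    have := hle (show (⟨y, hYN hy⟩ : ↥N) ∈ Y.subgroupOf N from by rw [mem_subgroupOf]; exact hy)
    rw [mem_subgroupOf] at this
    exact this)
  rw [mem_subgroupOf] at hx hxA
  refine ⟨x, hx, hxA, fun n hn => ?_⟩
  have := hxg ⟨n, hn⟩
  rw [mem_subgroupOf] at this
  exact this

/-- In a `2`-group a proper subgroup is normalised by an outside element with square inside. -/
theorem exists_next [Finite G] (Y Q : Subgroup G) (hQ : IsPGroup 2 ↥Q) (hYQ : Y ≤ Q)
    (hne : Y ≠ Q) : ∃ x ∈ Q, x ∉ Y ∧ x * x ∈ Y ∧ x ∈ normalizer (Y : Set G) := by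
  have hf2 : Fact (Nat.Prime 2) := ⟨Nat.prime_two⟩
  obtain ⟨n, hn⟩ := IsPGroup.iff_card.mp hQ
  obtain ⟨k, hk⟩ := IsPGroup.iff_card.mp (hQ.to_le hYQ)
  have hkc : Nat.card ↥(Y.subgroupOf Q) = 2 ^ k := by
    rw [Nat.card_congr (Subgroup.subgroupOfEquivOfLe hYQ).toEquiv, hk]
  have hlt : k < n := by
    have hd : Nat.card ↥Y ∣ Nat.card ↥Q := card_dvd_of_le hYQ
    rw [hn, hk] at hd
    have hle : k ≤ n := (Nat.pow_dvd_pow_iff_le_right (by norm_num)).mp hd
    rcases Nat.lt_or_ge k n with h | h
    · exact h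
    · exfalso
      have : k = n := le_antisymm hle h
      apply hne
      apply eq_of_le_of_card_ge hYQ
      rw [hn, hk, this]
  have hd : 2 ^ (k + 1) ∣ Nat.card ↥Q := by rw [hn]; exact pow_dvd_pow 2 hlt
  obtain ⟨K, hK, hYK⟩ := Sylow.exists_subgroup_card_pow_succ hd hkc
  have hidx : ((Y.subgroupOf Q).subgroupOf K).index = 2 := by
    have h5 := Subgroup.card_mul_index ((Y.subgroupOf Q).subgroupOf K)
    rw [Nat.card_congr (Subgroup.subgroupOfEquivOfLe hYK).toEquiv, hkc, hK, pow_succ] at h5
    exact Nat.eq_of_mul_eq_mul_left (by positivity) h5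
  obtain ⟨x, hxK, hxY⟩ : ∃ x ∈ K, x ∉ Y.subgroupOf Q := by
    by_contra h
    push Not at h
    have h1 : Nat.card ↥K ≤ Nat.card ↥(Y.subgroupOf Q) := card_le_of_le h
    rw [hK, hkc, pow_succ] at h1
    have : 0 < 2 ^ k := by positivity
    omega
  have hxY' : (x : G) ∉ Y := by rwa [mem_subgroupOf] at hxY
  have hsq := Subgroup.mul_self_mem_of_index_two hidx ⟨x, hxK⟩
  rw [mem_subgroupOf, mem_subgroupOf] at hsq
  refine ⟨x, x.2, hxY', hsq, ?_⟩
  -- conjugation
  have hnor : ((Y.subgroupOf Q).subgroupOf K).Normal := Subgroup.normal_of_index_eq_two hidx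
  have hzp : zpowers (x : G) ≤ normalizer (Y : Set G) := by
    rw [le_normalizer_iff]
    rintro _ ⟨m, rfl⟩ y hy
    have hyK : (⟨y, hYQ hy⟩ : ↥Q) ∈ K := hYK (by rw [mem_subgroupOf]; exact hy)
    have := hnor.conj_mem ⟨⟨y, hYQ hy⟩, hyK⟩ (by rw [mem_subgroupOf, mem_subgroupOf]; exact hy)
      ((⟨x, hxK⟩ : ↥K) ^ m)
    rw [mem_subgroupOf, mem_subgroupOf] at this
    simpa using this
  exact hzp (mem_zpowers _)

/-- A minimal `Y` without `NA8`, abelian case. -/
theorem min_card_four [Finite G] {H Y : Subgroup G} (hH : Odd (Nat.card ↥H)) (m : Min H Y)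
    (hab : ∀ x ∈ Y, ∀ y ∈ Y, x * y = y * x) (hna : ¬ NA8 Y) :
    Nat.card ↥Y = 4 ∧ ∀ x ∈ Y, x * x = 1 := by
  have hf2 : Fact (Nat.Prime 2) := ⟨Nat.prime_two⟩
  have h1 := m.sq_one hH hab
  refine ⟨?_, h1⟩
  obtain ⟨n, hn⟩ := IsPGroup.iff_card.mp m.two
  have hlt : ¬ 8 ≤ Nat.card ↥Y := fun h => hna (na8_of_elem Y h h1)
  rcases n with _ | _ | _ | n
  · exfalso
    apply m.nt
    rw [pow_zero] at hn
    have := Subgroup.card_eq_one.mp hn
    intro a _ y hy
    rw [this, mem_bot] at hy
    rw [hy]; group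
  · exfalso
    exact m.nt (cen_of_card_two m.inv (by simpa using hn))
  · simpa using hn
  · exfalso
    apply hlt
    rw [hn]
    have : 2 ^ 3 ≤ 2 ^ (n + 1 + 1 + 1) := Nat.pow_le_pow_right (by norm_num) (by omega)
    simpa using this

/-- A minimal `Y` without `NA8`, nonabelian case. -/
theorem min_q8 [Finite G] {H Y : Subgroup G} (hH : Odd (Nat.card ↥H)) (m : Min H Y)
    (hnab : ¬ ∀ x ∈ Y, ∀ y ∈ Y, x * y = y * x) (hna : ¬ NA8 Y) : ∃ z i j, Q8 Y z i j := by
  have hf2 : Fact (Nat.Prime 2) := ⟨Nat.prime_two⟩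
  obtain ⟨_, hfr, hcm⟩ := m.special hH hnab
  -- the centre, inside `G`
  obtain ⟨Z, hZ⟩ : ∃ Z : Subgroup G, ∀ x, x ∈ Z ↔ x ∈ Y ∧ ∀ y ∈ Y, x * y = y * x := by
    refine ⟨Y ⊓ centralizer (Y : Set G), fun x => ?_⟩
    rw [mem_inf, mem_centralizer_iff]
    exact and_congr_right fun _ => ⟨fun h y hy => (h y hy).symm, fun h y hy => (h y hy).symm⟩
  have hZc : ∀ x : ↥Y, x ∈ center ↥Y ↔ (x : G) ∈ Z := by
    intro x
    rw [hZ, mem_center_iff]
    constructor
    · intro h
      exact ⟨x.2, fun y hy => (congrArg Subtype.val (h ⟨y, hy⟩)).symm⟩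
    · rintro ⟨_, h⟩ ⟨y, hy⟩
      exact Subtype.ext (h y hy).symm
  have hZY : Z ≤ Y := fun x hx => ((hZ x).mp hx).1
  have hZcomm : ∀ x ∈ Z, ∀ y ∈ Y, x * y = y * x := fun x hx => ((hZ x).mp hx).2
  have hsqZ : ∀ x ∈ Y, x * x ∈ Z := by
    intro x hx
    have h1 := Cfsg.Agent.Lib.FrattiniBasic.pow_mem_frattini m.two ⟨x, hx⟩
    rw [hfr, hZc] at h1
    simpa [pow_two] using h1
  have hcmZ : ∀ x ∈ Y, ∀ y ∈ Y, x * y * x⁻¹ * y⁻¹ ∈ Z := by
    intro x hx y hy
    have h1 : (⟨x, hx⟩ : ↥Y) * ⟨y, hy⟩ * (⟨x, hx⟩ : ↥Y)⁻¹ * (⟨y, hy⟩ : ↥Y)⁻¹ ∈ commutator ↥Y :=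
      Subgroup.commutator_mem_commutator (mem_top _) (mem_top _)
    rw [hcm, hZc] at h1
    exact h1
  have hcsq : ∀ x ∈ Y, ∀ y ∈ Y, (x * y * x⁻¹ * y⁻¹) * (x * y * x⁻¹ * y⁻¹) = 1 := by
    intro x hx y hy
    have hc := hZcomm _ (hcmZ x hx y hy)
    obtain ⟨c, hcd⟩ : ∃ c, c = x * y * x⁻¹ * y⁻¹ := ⟨_, rfl⟩
    rw [← hcd] at hc ⊢
    have e1 : x * y = c * y * x := by rw [hcd]; group
    have e2 : (x * x) * y = (c * c) * (y * (x * x)) := by
      calc x * x * y = x * (x * y) := by group
        _ = x * (c * y * x) := by rw [e1]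
        _ = (x * c) * y * x := by group
        _ = (c * x) * y * x := by rw [hc x hx]
        _ = c * (x * y) * x := by group
        _ = c * (c * y * x) * x := by rw [e1]
        _ = (c * c) * (y * (x * x)) := by group
    rw [hZcomm _ (hsqZ x hx) y hy] at e2
    have e3 : 1 * (y * (x * x)) = (c * c) * (y * (x * x)) := by rw [one_mul]; exact e2
    exact (mul_right_cancel e3).symm
  -- `Z` has exponent 2
  have hZ2 : ∀ x ∈ Z, x * x = 1 := by
    let D : Subgroup ↥Y :=
      { carrier := {x | (x : G) ∈ Z ∧ (x : G) * x = 1}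
        one_mem' := ⟨Z.one_mem, by simp⟩
        mul_mem' := by
          rintro x y ⟨hx, hx2⟩ ⟨hy, hy2⟩
          refine ⟨Z.mul_mem hx hy, ?_⟩
          have h1 := hZcomm _ hx _ y.2
          change ((x : G) * y) * (x * y) = 1
          calc (x : G) * y * (x * y) = (x * y) * (x * y) := rfl
            _ = (y * x) * (x * y) := by rw [h1]
            _ = y * (x * x) * y := by group
            _ = y * y := by rw [hx2]; group
            _ = 1 := hy2
        inv_mem' := by
          rintro x ⟨hx, hx2⟩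
          refine ⟨Z.inv_mem hx, ?_⟩
          change (x : G)⁻¹ * (x : G)⁻¹ = 1
          rw [← mul_inv_rev, hx2, inv_one] }
    have hle : commutator ↥Y ≤ D := by
      rw [_root_.commutator_def, Subgroup.commutator_le]
      intro x _ y _
      exact ⟨hcmZ _ x.2 _ y.2, hcsq _ x.2 _ y.2⟩
    intro x hx
    have h1 : (⟨x, hZY hx⟩ : ↥Y) ∈ commutator ↥Y := by rw [hcm, hZc]; exact hx
    exact (hle h1).2
  have hexy : ∃ y ∈ Y, y ∉ Z := by
    by_contra h
    push Not at h
    apply hnab
    intro x hx y hy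
    exact hZcomm x (h x hx) y hy
  have hZcard : Nat.card ↥Z = 2 := by
    obtain ⟨n, hn⟩ := IsPGroup.iff_card.mp (m.two.to_le hZY)
    have hlt : ¬ 8 ≤ Nat.card ↥Z := fun h => hna ((na8_of_elem Z h hZ2).mono hZY)
    rcases n with _ | _ | _ | n
    · exfalso
      rw [pow_zero] at hn
      have h1 := Subgroup.card_eq_one.mp hn
      apply hnab
      intro x hx y hy
      have h2 := hcmZ x hx y hy
      rw [h1, mem_bot] at h2
      calc x * y = (x * y * x⁻¹ * y⁻¹) * (y * x) := by group
        _ = y * x := by rw [h2, one_mul]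
    · simpa using hn
    · exfalso
      obtain ⟨y, hy, hyZ⟩ := hexy
      apply hna
      refine na8_of_ext Z Y y (by simpa using hn) (fun a ha b hb => hZcomm a ha b (hZY hb)) hZY hy
        hyZ (fun e he => hZcomm e he y hy) (hsqZ y hy) ?_
      have : y ^ 4 = (y * y) * (y * y) := by simp only [pow_succ, pow_zero, one_mul, mul_assoc]
      rw [this]; exact hZ2 _ (hsqZ y hy)
    · exfalso
      apply hlt
      rw [hn]
      have : 2 ^ 3 ≤ 2 ^ (n + 1 + 1 + 1) := Nat.pow_le_pow_right (by norm_num) (by omega)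
      simpa using this
  obtain ⟨z, hzZ, hz1, hzall⟩ : ∃ z ∈ Z, z ≠ 1 ∧ ∀ x ∈ Z, x = 1 ∨ x = z := by
    obtain ⟨x, hx, hxu⟩ := (Nat.card_eq_two_iff' (1 : ↥Z)).mp hZcard
    refine ⟨x, x.2, fun h => hx (Subtype.ext h), fun y hy => ?_⟩
    by_cases h : y = 1
    · exact Or.inl h
    · right
      exact congrArg Subtype.val (hxu ⟨y, hy⟩ (fun h' => h (congrArg Subtype.val h')))
  have hzz : z * z = 1 := hZ2 z hzZ
  have hzY : z ∈ Y := hZY hzZ
  have hzc : ∀ y ∈ Y, z * y = y * z := hZcomm z hzZ
  have hsq : ∀ x ∈ Y, x * x = 1 ∨ x * x = z := fun x hx => hzall _ (hsqZ x hx)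
  have hco : ∀ x ∈ Y, ∀ y ∈ Y, x * y = y * x ∨ x * y = y * x * z := by
    intro x hx y hy
    rcases hzall _ (hcmZ x hx y hy) with h | h
    · left
      calc x * y = (x * y * x⁻¹ * y⁻¹) * (y * x) := by group
        _ = y * x := by rw [h, one_mul]
    · right
      calc x * y = (x * y * x⁻¹ * y⁻¹) * (y * x) := by group
        _ = z * (y * x) := by rw [h]
        _ = y * x * z := hzc _ (Y.mul_mem hy hx)
  -- centralizers
  have hcent : ∀ y ∈ Y, y ≠ 1 → y ≠ z → ∀ x ∈ Y, x * y = y * x →
      x = 1 ∨ x = z ∨ x = y ∨ x = y * z := by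
    intro y hy hy1 hyz x hx hxy
    obtain ⟨E, hE4, hE⟩ := exists_four z y hzz (hzc y hy) (hsq y hy) hz1 hy1 hyz
    by_contra hxE
    have hxE' : x ∉ E := fun h => hxE ((hE x).mp h)
    apply hna
    have hEY : E ≤ Y := by
      intro e he
      rcases (hE e).mp he with rfl | rfl | rfl | rfl
      · exact Y.one_mem
      · exact hzY
      · exact hy
      · exact Y.mul_mem hy hzY
    have c0 : Commute z y := hzc y hy
    have c1 : Commute z x := hzc x hx
    have c2 : Commute y x := hxy.symm
    refine na8_of_ext E Y x hE4 ?_ hEY hx hxE' ?_ ?_ ?_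
    · intro a ha b hb
      rcases (hE a).mp ha with rfl | rfl | rfl | rfl
      · simp
      · exact hzc b (hEY hb)
      · rcases (hE b).mp hb with rfl | rfl | rfl | rfl
        · simp
        · exact c0.symm
        · rfl
        · exact (Commute.refl _).mul_right c0.symm
      · rcases (hE b).mp hb with rfl | rfl | rfl | rfl
        · simp
        · exact c0.symm.mul_left (Commute.refl _)
        · exact (Commute.refl _).mul_left c0
        · rfl
    · intro e he
      rcases (hE e).mp he with rfl | rfl | rfl | rfl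
      · simp
      · exact c1
      · exact c2
      · exact c2.mul_left c1
    · rcases hsq x hx with h | h <;> rw [h]
      · exact E.one_mem
      · exact (hE z).mpr (Or.inr (Or.inl rfl))
    · have : x ^ 4 = (x * x) * (x * x) := by simp only [pow_succ, pow_zero, one_mul, mul_assoc]
      rw [this]
      rcases hsq x hx with h | h <;> rw [h]
      · simp
      · exact hzz
  have hZinv : ∀ h ∈ H, h * z * h⁻¹ = z := by
    intro h hh
    have h1 : h * z * h⁻¹ ∈ Z := by
      rw [hZ]
      refine ⟨le_normalizer_iff.mp m.inv h hh z hzY, fun y hy => ?_⟩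
      have h2 := hzc _ (le_normalizer_iff.mp m.inv h⁻¹ (H.inv_mem hh) y hy)
      calc h * z * h⁻¹ * y = h * (z * (h⁻¹ * y * h⁻¹⁻¹)) * h⁻¹ := by group
        _ = h * (h⁻¹ * y * h⁻¹⁻¹ * z) * h⁻¹ := by rw [h2]
        _ = y * (h * z * h⁻¹) := by group
    rcases hzall _ h1 with h2 | h2
    · exfalso
      apply hz1
      calc z = h⁻¹ * (h * z * h⁻¹) * h := by group
        _ = 1 := by rw [h2]; group
    · exact h2
  -- no outside involutions
  have hninv : ∀ a ∈ Y, a * a = 1 → a = 1 ∨ a = z := by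
    intro a ha haa
    by_contra hcon
    push Not at hcon
    obtain ⟨ha1, haz⟩ := hcon
    -- an element not commuting with `a`
    obtain ⟨b, hb, hab⟩ : ∃ b ∈ Y, a * b ≠ b * a := by
      by_contra h
      push Not at h
      rcases hzall a ((hZ a).mpr ⟨ha, h⟩) with h | h
      · exact ha1 h
      · exact haz h
    have hab' : b * a = a * b * z := by
      rcases hco b hb a ha with h | h
      · exact absurd h.symm hab
      · exact h
    obtain ⟨y, hy, hyy, hay⟩ : ∃ y ∈ Y, y * y = z ∧ y * a = a * y * z := by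
      rcases hsq b hb with h | h
      · refine ⟨a * b, Y.mul_mem ha hb, ?_, ?_⟩
        · calc a * b * (a * b) = a * (b * a) * b := by group
            _ = a * (a * b * z) * b := by rw [hab']
            _ = (a * a) * b * (z * b) := by group
            _ = b * (b * z) := by rw [haa, hzc b hb, one_mul]
            _ = b * b * z := by group
            _ = z := by rw [h, one_mul]
        · calc a * b * a = a * (b * a) := by group
            _ = a * (a * b * z) := by rw [hab']
            _ = a * (a * b) * z := by group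
      · exact ⟨b, hb, h, hab'⟩
    have hy1 : y ≠ 1 := by rintro rfl; apply hz1; rw [← hyy, one_mul]
    have hyz : y ≠ z := by rintro rfl; rw [hzz] at hyy; exact hz1 hyy.symm
    obtain ⟨B, hB4, hB⟩ := exists_four z y hzz (hzc y hy) (Or.inr hyy) hz1 hy1 hyz
    have hBY : B ≤ Y := by
      intro e he
      rcases (hB e).mp he with rfl | rfl | rfl | rfl
      · exact Y.one_mem
      · exact hzY
      · exact hy
      · exact Y.mul_mem hy hzY
    -- commuting with y
    have hByc : ∀ x ∈ Y, x ∈ B ↔ x * y = y * x := by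
      intro x hx
      constructor
      · intro hxB
        rcases (hB x).mp hxB with h | h | h | h
        · rw [h]; simp
        · rw [h]; exact hzc y hy
        · rw [h]
        · rw [h, mul_assoc, hzc y hy]
      · intro h
        exact (hB x).mpr (hcent y hy hy1 hyz x hx h)
    have hay' : a * y = y * a * z := by
      rw [hay, mul_assoc, hzz, mul_one]
    have haB : a ∉ B := by
      intro h
      have h1 := (hByc a ha).mp h
      rw [hay'] at h1
      exact hz1 (by simpa using h1)
    have hnotB : ∀ x ∈ Y, x ∉ B → x * y = y * x * z := by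
      intro x hx hxB
      rcases hco x hx y hy with h | h
      · exact absurd ((hByc x hx).mpr h) hxB
      · exact h
    have hprod : ∀ x ∈ Y, x ∉ B → x * a ∈ B := by
      intro x hx hxB
      rw [hByc _ (Y.mul_mem hx ha)]
      calc x * a * y = x * (a * y) := by group
        _ = (x * y) * (a * z) := by rw [hay']; group
        _ = y * x * (z * a) * z := by rw [hnotB x hx hxB]; group
        _ = y * (x * a) * (z * z) := by rw [hzc a ha]; group
        _ = y * (x * a) := by rw [hzz, mul_one]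
    have hBsq : ∀ x ∈ Y, x ∉ B → x * x = 1 := by
      intro x hx hxB
      have h1 := hprod x hx hxB
      have h2 := (hByc _ (Y.mul_mem hx ha)).mp h1
      -- x = b a with b ∈ B, (b a)² = b a b a
      obtain ⟨c, hc⟩ : ∃ c, c = x * a := ⟨_, rfl⟩
      rw [← hc] at h1 h2
      have hx' : x = c * a := by rw [hc, mul_assoc, haa, mul_one]
      rcases (hB c).mp h1 with h | h | h | h
      · rw [hx', h, one_mul, haa]
      · rw [hx', h]
        calc z * a * (z * a) = (z * a) * (z * a) := rfl
          _ = (a * z) * (z * a) := by rw [hzc a ha]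
          _ = a * (z * z) * a := by group
          _ = 1 := by rw [hzz, mul_one, haa]
      · rw [hx', h]
        calc y * a * (y * a) = y * (a * y) * a := by group
          _ = y * (y * a * z) * a := by rw [hay']
          _ = (y * y) * a * (z * a) := by group
          _ = (z * a) * (z * a) := by rw [hyy]
          _ = (a * z) * (z * a) := by nth_rewrite 1 [hzc a ha]; rfl
          _ = a * (z * z) * a := by group
          _ = 1 := by rw [hzz, mul_one, haa]
      · rw [hx', h]
        calc y * z * a * (y * z * a) = y * (z * a) * (y * z * a) := by group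
          _ = y * (a * z) * (y * z * a) := by rw [hzc a ha]
          _ = y * a * (z * y) * (z * a) := by group
          _ = y * a * (y * z) * (z * a) := by rw [hzc y hy]
          _ = y * (a * y) * (z * z) * a := by group
          _ = y * (y * a * z) * a := by rw [hzz, hay', mul_one]
          _ = (y * y) * a * (z * a) := by group
          _ = (z * a) * (z * a) := by rw [hyy]
          _ = (a * z) * (z * a) := by nth_rewrite 1 [hzc a ha]; rfl
          _ = a * (z * z) * a := by group
          _ = 1 := by rw [hzz, mul_one, haa]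
    have hBset : ∀ x, x ∈ B ↔ x ∈ Y ∧ (x = 1 ∨ x = z ∨ x * x = z) := by
      intro x
      constructor
      · intro hx
        refine ⟨hBY hx, ?_⟩
        rcases (hB x).mp hx with h | h | h | h
        · exact Or.inl h
        · exact Or.inr (Or.inl h)
        · right; right; rw [h, hyy]
        · right; right
          rw [h]
          calc y * z * (y * z) = y * (z * y) * z := by group
            _ = (y * y) * (z * z) := by rw [hzc y hy]; group
            _ = z := by rw [hyy, hzz, mul_one]
      · rintro ⟨hx, h | h | h⟩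
        · rw [h]; exact B.one_mem
        · rw [h]; exact (hB z).mpr (Or.inr (Or.inl rfl))
        · by_contra hxB
          rw [hBsq x hx hxB] at h
          exact hz1 h.symm
    have hHB : H ≤ normalizer (B : Set G) := by
      rw [le_normalizer_iff]
      intro h hh x hx
      rw [hBset] at hx ⊢
      refine ⟨le_normalizer_iff.mp m.inv h hh x hx.1, ?_⟩
      rcases hx.2 with h1 | h1 | h1
      · left; rw [h1]; group
      · right; left; rw [h1]; exact hZinv h hh
      · right; right
        calc h * x * h⁻¹ * (h * x * h⁻¹) = h * (x * x) * h⁻¹ := by group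
          _ = z := by rw [h1]; exact hZinv h hh
    have hHZ : H ≤ normalizer (Z : Set G) := by
      rw [le_normalizer_iff]
      intro h hh x hx
      rcases hzall x hx with rfl | rfl
      · have : h * 1 * h⁻¹ = 1 := by group
        rw [this]; exact Z.one_mem
      · rw [hZinv h hh]; exact hx
    have hZB : Z ≤ B := by
      intro x hx
      rcases hzall x hx with rfl | rfl
      · exact B.one_mem
      · exact (hB x).mpr (Or.inr (Or.inl rfl))
    have hrelZB : Z.relIndex B = 2 := by
      have h5 := Subgroup.card_mul_index (Z.subgroupOf B)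
      rw [Nat.card_congr (Subgroup.subgroupOfEquivOfLe hZB).toEquiv] at h5
      change Nat.card ↥Z * Z.relIndex B = Nat.card ↥B at h5
      rw [hZcard, hB4] at h5
      omega
    have hrelBY : B.relIndex Y = 2 := by
      rw [relIndex_eq_two_iff]
      refine ⟨a, ha, fun x hx => ?_⟩
      by_cases hxB : x ∈ B
      · right
        refine ⟨hxB, fun h => haB ?_⟩
        have := B.mul_mem (B.inv_mem hxB) h
        simpa using this
      · left
        exact ⟨hprod x hx hxB, hxB⟩
    have hZcen : Cen H Z := cen_of_card_two hHZ hZcard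
    have hBcen : Cen H B := cen_of_index_two hH (m.two.to_le hBY) hHB hHZ hZB hrelZB hZcen
    exact m.nt (cen_of_index_two hH m.two m.inv hHB hBY hrelBY hBcen)
  -- the coordinates
  obtain ⟨i, hi, j, hj, hij⟩ : ∃ i ∈ Y, ∃ j ∈ Y, i * j ≠ j * i := by
    by_contra h
    push Not at h
    exact hnab h
  have hi1 : i ≠ 1 := by rintro rfl; apply hij; simp
  have hiz : i ≠ z := by rintro rfl; exact hij (hzc j hj)
  have hj1 : j ≠ 1 := by rintro rfl; apply hij; simp
  have hjz : j ≠ z := by rintro rfl; exact hij (hzc i hi).symm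
  have hii : i * i = z := by
    rcases hsq i hi with h | h
    · rcases hninv i hi h with h' | h'
      · exact absurd h' hi1
      · exact absurd h' hiz
    · exact h
  have hjj : j * j = z := by
    rcases hsq j hj with h | h
    · rcases hninv j hj h with h' | h'
      · exact absurd h' hj1
      · exact absurd h' hjz
    · exact h
  have hji : j * i = i * j * z := by
    rcases hco j hj i hi with h | h
    · exact absurd h.symm hij
    · exact h
  refine ⟨z, i, j, ⟨hi, hj, hii, hjj, hzz, hz1, hji, ?_⟩⟩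
  intro x hx
  rcases hco x hx i hi with h | h
  · rcases hcent i hi hi1 hiz x hx h with h | h | h | h
    · exact Or.inl h
    · exact Or.inr (Or.inl h)
    · exact Or.inr (Or.inr (Or.inl h))
    · exact Or.inr (Or.inr (Or.inr (Or.inl h)))
  · have h1 : x * j * i = i * (x * j) := by
      calc x * j * i = x * (j * i) := by group
        _ = (x * i) * (j * z) := by rw [hji]; group
        _ = i * x * (z * j) * z := by rw [h]; group
        _ = i * (x * j) * (z * z) := by rw [hzc j hj]; group
        _ = i * (x * j) := by rw [hzz, mul_one]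
    have hjinv : j⁻¹ = j * z := by
      rw [inv_eq_iff_mul_eq_one]
      calc j * (j * z) = (j * j) * z := by group
        _ = 1 := by rw [hjj, hzz]
    have hx' : ∀ w, x * j = w → x = w * (j * z) := by
      intro w hw
      rw [← hw, ← hjinv]; group
    rcases hcent i hi hi1 hiz (x * j) (Y.mul_mem hx hj) h1 with h2 | h2 | h2 | h2
    · have := hx' _ h2
      right; right; right; right; right; left
      rw [this, one_mul]
    · have := hx' _ h2
      right; right; right; right; left
      rw [this, ← mul_assoc, hzc j hj, mul_assoc, hzz, mul_one]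
    · have := hx' _ h2
      right; right; right; right; right; right; right
      rw [this]; group
    · have := hx' _ h2
      right; right; right; right; right; right; left
      rw [this]
      calc i * z * (j * z) = i * (z * j) * z := by group
        _ = i * j * (z * z) := by rw [hzc j hj]; group
        _ = i * j := by rw [hzz, mul_one]

theorem inv_inf {H A B : Subgroup G} (hA : H ≤ normalizer (A : Set G))
    (hB : H ≤ normalizer (B : Set G)) : H ≤ normalizer ((A ⊓ B : Subgroup G) : Set G) := by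
  rw [le_normalizer_iff] at hA hB ⊢
  intro h hh x hx
  obtain ⟨h1, h2⟩ := mem_inf.mp hx
  exact mem_inf.mpr ⟨hA h hh x h1, hB h hh x h2⟩

theorem inv_centralizer {H A : Subgroup G} (hA : H ≤ normalizer (A : Set G)) :
    H ≤ normalizer ((centralizer (A : Set G) : Subgroup G) : Set G) := by
  rw [le_normalizer_iff] at hA ⊢
  intro h hh x hx
  rw [mem_centralizer_iff] at hx ⊢
  intro a ha
  have h1 := hx _ (hA h⁻¹ (H.inv_mem hh) a ha)
  calc a * (h * x * h⁻¹) = h * (h⁻¹ * a * h⁻¹⁻¹ * x) * h⁻¹ := by group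
    _ = h * (x * (h⁻¹ * a * h⁻¹⁻¹)) * h⁻¹ := by rw [h1]
    _ = h * x * h⁻¹ * a := by group

theorem inv_normalizer {H A : Subgroup G} (hA : H ≤ normalizer (A : Set G)) :
    H ≤ normalizer ((normalizer (A : Set G) : Subgroup G) : Set G) :=
  hA.trans le_normalizer

theorem inv_sup {H A B : Subgroup G} (hA : H ≤ normalizer (A : Set G))
    (hB : H ≤ normalizer (B : Set G)) : H ≤ normalizer ((A ⊔ B : Subgroup G) : Set G) := by
  have e : A ⊔ B = closure ((A : Set G) ∪ B) := by
    rw [Subgroup.closure_union, Subgroup.closure_eq, Subgroup.closure_eq]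
  rw [le_normalizer_iff] at hA hB
  rw [e, le_normalizer_closure_iff]
  rintro h hh g (hg | hg)
  · exact Subgroup.subset_closure (Or.inl (hA h hh g hg))
  · exact Subgroup.subset_closure (Or.inr (hB h hh g hg))

theorem relIndex_eq {A B : Subgroup G} [Finite G] (hAB : A ≤ B) {a k : ℕ} (hA : Nat.card ↥A = a)
    (hB : Nat.card ↥B = a * k) : A.relIndex B = k := by
  have h5 := Subgroup.card_mul_index (A.subgroupOf B)
  rw [Nat.card_congr (Subgroup.subgroupOfEquivOfLe hAB).toEquiv] at h5
  change Nat.card ↥A * A.relIndex B = Nat.card ↥B at h5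
  rw [hA, hB] at h5
  have : 0 < a := by rw [← hA]; exact Nat.card_pos
  exact Nat.eq_of_mul_eq_mul_left this h5

/-- The case of a group of order `4`: `N` centralises `Y`. -/
theorem four_cent [Finite G] {H Y N : Subgroup G} (hH : Odd (Nat.card ↥H)) (hN : IsPGroup 2 ↥N)
    (hYN : Y ≤ N) (hNY : N ≤ normalizer (Y : Set G)) (hHY : H ≤ normalizer (Y : Set G))
    (hHN : H ≤ normalizer (N : Set G)) (hY4 : Nat.card ↥Y = 4) (hnt : ¬ Cen H Y) :
    ∀ n ∈ N, ∀ y ∈ Y, n * y = y * n := by
  have hF : Y ⊓ centralizer (N : Set G) = Y := by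
    by_contra hne
    have hcard : Nat.card ↥(Y ⊓ centralizer (N : Set G) : Subgroup G) ∣ 4 := by
      rw [← hY4]; exact card_dvd_of_le inf_le_left
    have h1 : Nat.card ↥(Y ⊓ centralizer (N : Set G) : Subgroup G) ≠ 4 := by
      intro h
      exact hne (eq_of_le_of_card_ge inf_le_left (by rw [h, hY4]))
    have h2 : Nat.card ↥(Y ⊓ centralizer (N : Set G) : Subgroup G) ≠ 1 := by
      intro h
      have h3 := Subgroup.card_eq_one.mp h
      have hYb : ¬ Y ≤ ⊥ := by
        intro h4
        rw [le_bot_iff] at h4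
        rw [h4, card_bot] at hY4
        omega
      obtain ⟨y, hy, hy1, hyn⟩ := exists_fixed_mod N Y ⊥ hN hYN hNY hYb
      apply hy1
      rw [← h3]
      refine mem_inf.mpr ⟨hy, mem_centralizer_iff.mpr ?_⟩
      intro n hn
      have h4 := mem_bot.mp (hyn n hn)
      calc n * y = (n * y * n⁻¹ * y⁻¹) * (y * n) := by group
        _ = y * n := by rw [h4, one_mul]
    have h3 : Nat.card ↥(Y ⊓ centralizer (N : Set G) : Subgroup G) = 2 := by
      have h4 := Nat.le_of_dvd (by norm_num) hcard
      interval_cases h5 : Nat.card ↥(Y ⊓ centralizer (N : Set G) : Subgroup G) <;> omega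
    have hinv := inv_inf hHY (inv_centralizer hHN)
    exact hnt (cen_of_index_two hH (hN.to_le hYN) hHY hinv inf_le_left
      (relIndex_eq inf_le_left h3 (by rw [hY4])) (cen_of_card_two hinv h3))
  intro n hn y hy
  rw [← hF] at hy
  exact mem_centralizer_iff.mp (mem_inf.mp hy).2 n hn

theorem Q8.norm_z {Y : Subgroup G} {z i j : G} (q : Q8 Y z i j) {n : G}
    (hn : n ∈ normalizer (Y : Set G)) : n * z * n⁻¹ = z := by
  have h1 : ∀ x ∈ Y, n * x * n⁻¹ ∈ Y := fun x hx => (hn x).mp hx
  have h2 : ∀ x ∈ Y, n⁻¹ * x * n ∈ Y := fun x hx => by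
    have := ((normalizer (Y : Set G)).inv_mem hn x).mp hx
    rwa [inv_inv] at this
  have h3 : ∀ x ∈ Y, (n * z * n⁻¹) * x = x * (n * z * n⁻¹) := by
    intro x hx
    have h4 := q.zc _ (h2 x hx)
    calc n * z * n⁻¹ * x = n * (z * (n⁻¹ * x * n)) * n⁻¹ := by group
      _ = n * ((n⁻¹ * x * n) * z) * n⁻¹ := by rw [h4]
      _ = x * (n * z * n⁻¹) := by group
  rcases q.center (h1 z q.hz) (h3 i q.hi) (h3 j q.hj) with h | h
  · exfalso
    apply q.z1
    calc z = n⁻¹ * (n * z * n⁻¹) * n := by group
      _ = 1 := by rw [h]; group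
  · exact h

/-- The case of a quaternion group: `N` acts trivially on `Y / Z(Y)`. -/
theorem q8_cent [Finite G] {H Y N : Subgroup G} {z i j : G} (q : Q8 Y z i j)
    (hH : Odd (Nat.card ↥H)) (hN : IsPGroup 2 ↥N)
    (hYN : Y ≤ N) (hNY : N ≤ normalizer (Y : Set G)) (hHY : H ≤ normalizer (Y : Set G))
    (hHN : H ≤ normalizer (N : Set G)) (hnt : ¬ Cen H Y) :
    ∀ n ∈ N, ∀ y ∈ Y, n * y * n⁻¹ = y ∨ n * y * n⁻¹ = y * z := by
  have hzN : ∀ n ∈ N, n * z * n⁻¹ = z := fun n hn => q.norm_z (hNY hn)
  have hzH : ∀ h ∈ H, h * z * h⁻¹ = z := fun h hh => q.norm_z (hHY hh)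
  have hzinv : z⁻¹ = z := inv_eq_of_mul_eq_one_right q.zz
  let F : Subgroup G :=
    { carrier := {y | y ∈ Y ∧ ∀ n ∈ N, n * y * n⁻¹ = y ∨ n * y * n⁻¹ = y * z}
      one_mem' := ⟨Y.one_mem, fun n _ => by left; group⟩
      mul_mem' := by
        rintro a b ⟨ha, ha'⟩ ⟨hb, hb'⟩
        refine ⟨Y.mul_mem ha hb, fun n hn => ?_⟩
        have e : n * (a * b) * n⁻¹ = (n * a * n⁻¹) * (n * b * n⁻¹) := by group
        have e1 : a * z * b = a * b * z := by rw [mul_assoc, q.zc b hb, ← mul_assoc]
        rw [e]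
        rcases ha' n hn with h | h <;> rcases hb' n hn with h' | h' <;> rw [h, h']
        · left; rfl
        · right; group
        · right; exact e1
        · left
          calc a * z * (b * z) = (a * z * b) * z := by group
            _ = a * b * (z * z) := by rw [e1]; group
            _ = a * b := by rw [q.zz, mul_one]
      inv_mem' := by
        rintro a ⟨ha, ha'⟩
        refine ⟨Y.inv_mem ha, fun n hn => ?_⟩
        have e : n * a⁻¹ * n⁻¹ = (n * a * n⁻¹)⁻¹ := by group
        rw [e]
        rcases ha' n hn with h | h <;> rw [h]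
        · left; rfl
        · right; rw [mul_inv_rev, hzinv]; exact q.zc _ (Y.inv_mem ha) }
  have hFY : F ≤ Y := fun x hx => hx.1
  have hHF : H ≤ normalizer (F : Set G) := by
    rw [le_normalizer_iff]
    rintro h hh y ⟨hy, hy'⟩
    refine ⟨le_normalizer_iff.mp hHY h hh y hy, fun n hn => ?_⟩
    have h1 := le_normalizer_iff.mp hHN h⁻¹ (H.inv_mem hh) n hn
    have e : n * (h * y * h⁻¹) * n⁻¹ = h * ((h⁻¹ * n * h⁻¹⁻¹) * y * (h⁻¹ * n * h⁻¹⁻¹)⁻¹) * h⁻¹ := by
      group
    rw [e]
    rcases hy' _ h1 with h2 | h2 <;> rw [h2]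
    · left; rfl
    · right
      calc h * (y * z) * h⁻¹ = (h * y * h⁻¹) * (h * z * h⁻¹) := by group
        _ = h * y * h⁻¹ * z := by rw [hzH h hh]
  have hzord : orderOf z = 2 := by
    apply orderOf_eq_prime _ q.z1
    rw [pow_two]; exact q.zz
  have hZcard : Nat.card ↥(zpowers z) = 2 := by rw [Nat.card_zpowers, hzord]
  have hZmem : ∀ x, x ∈ zpowers z ↔ x = 1 ∨ x = z := by
    intro x
    constructor
    · rintro ⟨k, rfl⟩
      simp only
      rcases Int.even_or_odd' k with ⟨m, rfl | rfl⟩
      · left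
        have : z ^ (2 : ℤ) = 1 := by
          rw [zpow_two, q.zz]
        rw [zpow_mul, this, one_zpow]
      · right
        have : z ^ (2 : ℤ) = 1 := by
          rw [zpow_two, q.zz]
        rw [zpow_add, zpow_mul, this, one_zpow, one_mul, zpow_one]
    · rintro (rfl | rfl)
      · exact Subgroup.one_mem _
      · exact mem_zpowers _
  have hZF : zpowers z ≤ F := by
    rw [zpowers_le]
    exact ⟨q.hz, fun n hn => Or.inl (hzN n hn)⟩
  have hHZ : H ≤ normalizer (zpowers z : Set G) := by
    rw [le_normalizer_iff]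
    intro h hh x hx
    rw [hZmem] at hx ⊢
    rcases hx with rfl | rfl
    · left; group
    · right; exact hzH h hh
  have hYcard := q.card
  have hF : F = Y := by
    by_contra hne
    obtain ⟨y, hy, hyZ, hyn⟩ := exists_fixed_mod N Y (zpowers z) hN hYN hNY (by
      intro hle
      have h1 := card_le_of_le hle
      rw [hYcard, hZcard] at h1
      omega)
    have hyF : y ∈ F := by
      refine ⟨hy, fun n hn => ?_⟩
      have e : n * y * n⁻¹ = (n * y * n⁻¹ * y⁻¹) * y := by group
      rcases (hZmem _).mp (hyn n hn) with h | h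
      · left; rw [e, h, one_mul]
      · right; rw [e, h]; exact q.zc y hy
    have hd1 : Nat.card ↥F ∣ 8 := by rw [← hYcard]; exact card_dvd_of_le hFY
    have hd2 : 2 ∣ Nat.card ↥F := by rw [← hZcard]; exact card_dvd_of_le hZF
    have hne8 : Nat.card ↥F ≠ 8 := by
      intro h
      exact hne (eq_of_le_of_card_ge hFY (by rw [h, hYcard]))
    have hne2 : Nat.card ↥F ≠ 2 := by
      intro h
      have h1 : zpowers z = F := eq_of_le_of_card_ge hZF (by rw [h, hZcard])
      rw [← h1] at hyF
      exact hyZ hyF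
    have hF4 : Nat.card ↥F = 4 := by
      have h1 := Nat.le_of_dvd (by norm_num) hd1
      interval_cases h5 : Nat.card ↥F <;> omega
    have hFcen : Cen H F := cen_of_index_two hH ((hN.to_le hYN).to_le hFY) hHF hHZ hZF
      (relIndex_eq hZF hZcard (by rw [hF4])) (cen_of_card_two hHZ hZcard)
    exact hnt (cen_of_index_two hH (hN.to_le hYN) hHY hHF hFY
      (relIndex_eq hFY hF4 (by rw [hYcard])) hFcen)
  intro n hn y hy
  rw [← hF] at hy
  exact hy.2 n hn

/-- A quaternion group properly contained in `Q` is centralised by an outside element. -/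
theorem q8_ext [Finite G] {H Y Q : Subgroup G} {z i j : G} (q : Q8 Y z i j)
    (hH : Odd (Nat.card ↥H)) (hQ : IsPGroup 2 ↥Q) (hYQ : Y ≤ Q) (hne : Y ≠ Q)
    (hHY : H ≤ normalizer (Y : Set G)) (hHQ : H ≤ normalizer (Q : Set G)) (hnt : ¬ Cen H Y) :
    ∃ x ∈ Q, x ∉ Y ∧ (∀ y ∈ Y, x * y = y * x) ∧ (x * x = 1 ∨ x * x = z) := by
  obtain ⟨x, hxQ, hxY, hxx, hxN⟩ := exists_next Y Q hQ hYQ hne
  have h1 := q8_cent q hH (N := Q ⊓ normalizer (Y : Set G)) (hQ.to_le inf_le_left)
    (le_inf hYQ le_normalizer) inf_le_right hHY (inv_inf hHQ (inv_normalizer hHY)) hnt x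
    (mem_inf.mpr ⟨hxQ, hxN⟩)
  obtain ⟨y, hy, hyx⟩ := q.fix (h1 i q.hi) (h1 j q.hj)
  refine ⟨y * x, Q.mul_mem (hYQ hy) hxQ, ?_, hyx, ?_⟩
  · intro h
    apply hxY
    have := Y.mul_mem (Y.inv_mem hy) h
    simpa using this
  · have h2 : (y * x) * (y * x) ∈ Y := by
      have e : (y * x) * (y * x) = y * y * (x * x) := by
        have h3 := hyx y⁻¹ (Y.inv_mem hy)
        calc (y * x) * (y * x) = y * ((y⁻¹ * (y * x)) * (y * x)) := by group
          _ = y * ((y * x) * y⁻¹ * (y * x)) := by rw [← h3]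
          _ = y * y * (x * x) := by group
      rw [e]
      exact Y.mul_mem (Y.mul_mem hy hy) hxx
    apply q.center h2
    · rw [mul_assoc, hyx i q.hi, ← mul_assoc, hyx i q.hi, mul_assoc]
    · rw [mul_assoc, hyx j q.hj, ← mul_assoc, hyx j q.hj, mul_assoc]

theorem q8_na8 [Finite G] {Y R : Subgroup G} {z i j : G} (q : Q8 Y z i j) (hYR : Y ≤ R) {x : G}
    (hxR : x ∈ R) (hxY : x ∉ Y) (hxc : ∀ y ∈ Y, x * y = y * x) (hxx : x * x = 1 ∨ x * x = z) :
    NA8 R := by
  obtain ⟨E, hE4, hEY, hE⟩ := q.exists_E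
  refine na8_of_ext E R x hE4 ?_ (hEY.trans hYR) hxR (fun h => hxY (hEY h))
    (fun e he => (hxc e (hEY he)).symm) ?_ ?_
  · intro a ha b hb
    rcases (hE a).mp ha with rfl | rfl | rfl | rfl
    · simp
    · exact q.zc b (hEY hb)
    · rcases (hE b).mp hb with rfl | rfl | rfl | rfl
      · simp
      · exact q.zi.symm
      · rfl
      · rw [mul_assoc, q.zi]
    · have h1 := q.zc b (hEY hb)
      rcases (hE b).mp hb with rfl | rfl | rfl | rfl
      · simp
      · rw [mul_assoc, ← mul_assoc b i b, q.zi, mul_assoc]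
      · rw [mul_assoc, q.zi]
      · rfl
  · rcases hxx with h | h <;> rw [h]
    · exact E.one_mem
    · exact (hE z).mpr (Or.inr (Or.inl rfl))
  · have : x ^ 4 = (x * x) * (x * x) := by simp only [pow_succ, pow_zero, one_mul, mul_assoc]
    rw [this]
    rcases hxx with h | h <;> rw [h]
    · simp
    · exact q.zz

/-- **Classification**: a `2`-group without noncyclic abelian subgroups of order `8` on which a
group of odd order acts nontrivially is a four-group or quaternion of order `8`. -/
theorem classify [Finite G] {H Q : Subgroup G} (hH : Odd (Nat.card ↥H)) (hQ : IsPGroup 2 ↥Q)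
    (hHQ : H ≤ normalizer (Q : Set G)) (hnt : ¬ Cen H Q) (hna : ¬ NA8 Q) :
    (Nat.card ↥Q = 4 ∧ ∀ x ∈ Q, x * x = 1) ∨ ∃ z i j, Q8 Q z i j := by
  obtain ⟨Y, hYQ, m⟩ := exists_min hQ hHQ hnt
  have hnaY : ¬ NA8 Y := fun h => hna (h.mono hYQ)
  by_cases hab : ∀ x ∈ Y, ∀ y ∈ Y, x * y = y * x
  · left
    obtain ⟨h4, h2⟩ := min_card_four hH m hab hnaY
    have hYQ' : Y = Q := by
      by_contra hne
      obtain ⟨x, hxQ, hxY, hxx, hxN⟩ := exists_next Y Q hQ hYQ hne
      have h1 := four_cent hH (N := Q ⊓ normalizer (Y : Set G)) (hQ.to_le inf_le_left)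
        (le_inf hYQ le_normalizer) inf_le_right m.inv (inv_inf hHQ (inv_normalizer m.inv)) h4
        m.nt x (mem_inf.mpr ⟨hxQ, hxN⟩)
      apply hna
      refine na8_of_ext Y Q x h4 hab hYQ hxQ hxY (fun e he => (h1 e he).symm) hxx ?_
      have : x ^ 4 = (x * x) * (x * x) := by simp only [pow_succ, pow_zero, one_mul, mul_assoc]
      rw [this, h2 _ hxx]
    rw [← hYQ']
    exact ⟨h4, h2⟩
  · right
    obtain ⟨z, i, j, q⟩ := min_q8 hH m hab hnaY
    have hYQ' : Y = Q := by
      by_contra hne
      obtain ⟨x, hxQ, hxY, hxc, hxx⟩ := q8_ext q hH hQ hYQ hne m.inv hHQ m.nt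
      exact hna (q8_na8 q hYQ hxQ hxY hxc hxx)
    rw [← hYQ']
    exact ⟨z, i, j, q⟩

end Cfsg.Agent.H586.NoAbelianEight
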