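import Cfsg.Agent.H586.OddAct
import Cfsg.Agent.Lib.FrattiniBasic
import Cfsg.Agent.S0012

/-!
# `2`-groups without noncyclic abelian subgroups of order `8`

`NA8 R`: `R` has a noncyclic abelian subgroup of order `8`.
If `H` has odd order and acts nontrivially on the `2`-group `Q` with `¬ NA8 Q`, then `Q` is a
four-group or a quaternion group of order `8` (`classify`).
-/

set_option autoImplicit false

namespace Cfsg.Agent.H586.NoAbelianEight

open Subgroup Cfsg.Agent.H586.OddAct

variable {G : Type*} [Group G]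

/-- `R` contains a noncyclic abelian subgroup of order `8`. -/
def NA8 (R : Subgroup G) : Prop :=
  ∃ A : Subgroup G, A ≤ R ∧ IsMulCommutative ↥A ∧ ¬ IsCyclic ↥A ∧ Nat.card ↥A = 8

theorem NA8.mono {R R' : Subgroup G} (h : NA8 R) (hR : R ≤ R') : NA8 R' := by
  obtain ⟨A, h1, h2⟩ := h
  exact ⟨A, h1.trans hR, h2⟩

theorem not_cyclic_of_pow_four [Finite G] {A : Subgroup G} (h8 : Nat.card ↥A = 8)
    (h4 : ∀ a ∈ A, a ^ 4 = 1) : ¬ IsCyclic ↥A := by
  intro h
  obtain ⟨g, hg⟩ := IsCyclic.exists_generator (α := ↥A)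
  have h1 : orderOf g = 8 := by rw [← h8]; exact orderOf_eq_card_of_forall_mem_zpowers hg
  have h2 : orderOf g ∣ 4 := by
    apply orderOf_dvd_of_pow_eq_one
    ext1
    push_cast
    exact h4 _ g.2
  rw [h1] at h2
  omega

theorem pow_card_eq_one' [Finite G] {E : Subgroup G} {n : ℕ} (hE : Nat.card ↥E = n) {x : G}
    (hx : x ∈ E) : x ^ n = 1 := by
  have h1 : (⟨x, hx⟩ : ↥E) ^ n = 1 := by rw [← hE]; exact _root_.pow_card_eq_one'
  exact congrArg Subtype.val h1

/-- Extending an abelian group of order `4` by a commuting element. -/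
theorem na8_of_ext [Finite G] (E R : Subgroup G) (x : G) (hE : Nat.card ↥E = 4)
    (hEc : ∀ a ∈ E, ∀ b ∈ E, a * b = b * a) (hER : E ≤ R) (hxR : x ∈ R) (hxE : x ∉ E)
    (hcx : ∀ e ∈ E, e * x = x * e) (hx2 : x * x ∈ E) (hx4 : x ^ 4 = 1) : NA8 R := by
  let A : Subgroup G :=
    { carrier := {a | a ∈ E ∨ a * x ∈ E}
      one_mem' := Or.inl E.one_mem
      mul_mem' := by
        rintro a b (ha | ha) (hb | hb)
        · exact Or.inl (E.mul_mem ha hb)
        · right; rw [mul_assoc]; exact E.mul_mem ha hb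
        · right
          have e : a * b * x = (a * x) * b := by rw [mul_assoc, hcx b hb, ← mul_assoc]
          rw [e]; exact E.mul_mem ha hb
        · left
          have h1 := hcx _ hb
          have e : a * b = (a * x) * (b * x) * (x * x)⁻¹ := by
            calc a * b = a * (b * x) * x⁻¹ := by group
              _ = a * ((b * x) * x) * x⁻¹ * x⁻¹ := by group
              _ = a * (x * (b * x)) * x⁻¹ * x⁻¹ := by rw [h1]
              _ = (a * x) * (b * x) * (x * x)⁻¹ := by group
          rw [e]; exact E.mul_mem (E.mul_mem ha hb) (E.inv_mem hx2)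
      inv_mem' := by
        rintro a (ha | ha)
        · exact Or.inl (E.inv_mem ha)
        · right
          have h1 := hcx _ (E.inv_mem ha)
          have e : a⁻¹ * x = (x * x) * (a * x)⁻¹ := by
            calc a⁻¹ * x = x * (a * x)⁻¹ * x := by group
              _ = x * ((a * x)⁻¹ * x) := by group
              _ = x * (x * (a * x)⁻¹) := by rw [h1]
              _ = (x * x) * (a * x)⁻¹ := by group
          rw [e]; exact E.mul_mem hx2 (E.inv_mem ha) }
  have hEA : E ≤ A := fun a ha => Or.inl ha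
  have hform : ∀ a ∈ A, ∃ e ∈ E, a = e ∨ a = e * x⁻¹ := by
    rintro a (ha | ha)
    · exact ⟨a, ha, Or.inl rfl⟩
    · exact ⟨a * x, ha, Or.inr (by group)⟩
  have hcx' : ∀ e ∈ E, e * x⁻¹ = x⁻¹ * e := by
    intro e he
    have h1 := hcx e he
    calc e * x⁻¹ = x⁻¹ * (x * e) * x⁻¹ := by group
      _ = x⁻¹ * (e * x) * x⁻¹ := by rw [h1]
      _ = x⁻¹ * e := by group
  have hcomm : ∀ a ∈ A, ∀ b ∈ A, a * b = b * a := by
    intro a ha b hb
    obtain ⟨e, he, h1⟩ := hform a ha
    obtain ⟨f, hf, h2⟩ := hform b hb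
    have c1 : Commute e f := hEc e he f hf
    have c2 : Commute e x⁻¹ := hcx' e he
    have c3 : Commute x⁻¹ f := (hcx' f hf).symm
    have c4 : Commute x⁻¹ x⁻¹ := Commute.refl _
    rcases h1 with h1 | h1 <;> rcases h2 with h2 | h2 <;> rw [h1, h2]
    · exact c1
    · exact c1.mul_right c2
    · exact c1.mul_left c3
    · exact (c1.mul_right c2).mul_left (c3.mul_right c4)
  have hrel : E.relIndex A = 2 := by
    rw [relIndex_eq_two_iff]
    refine ⟨x, Or.inr hx2, fun b hb => ?_⟩
    by_cases hbE : b ∈ E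
    · right
      refine ⟨hbE, fun h => hxE ?_⟩
      have := E.mul_mem (E.inv_mem hbE) h
      simpa using this
    · left
      exact ⟨hb.resolve_left hbE, hbE⟩
  have hcard : Nat.card ↥A = 8 := by
    have h5 := Subgroup.card_mul_index (E.subgroupOf A)
    rw [Nat.card_congr (Subgroup.subgroupOfEquivOfLe hEA).toEquiv] at h5
    change Nat.card ↥E * E.relIndex A = Nat.card ↥A at h5
    rw [hrel, hE] at h5
    exact h5.symm
  refine ⟨A, ?_, ⟨⟨fun a b => Subtype.ext (hcomm a a.2 b b.2)⟩⟩, ?_, hcard⟩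
  · intro a ha
    obtain ⟨e, he, rfl | rfl⟩ := hform a ha
    · exact hER he
    · exact R.mul_mem (hER he) (R.inv_mem hxR)
  · apply not_cyclic_of_pow_four hcard
    intro a ha
    obtain ⟨e, he, rfl | rfl⟩ := hform a ha
    · exact pow_card_eq_one' hE he
    · have hc : Commute e x⁻¹ := hcx' e he
      rw [hc.mul_pow, pow_card_eq_one' hE he, inv_pow, hx4]; simp

theorem na8_of_elem [Finite G] (E : Subgroup G) (hE : 8 ≤ Nat.card ↥E)
    (hE2 : ∀ x ∈ E, x * x = 1) : NA8 E := by
  have hf2 : Fact (Nat.Prime 2) := ⟨Nat.prime_two⟩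
  have hp : IsPGroup 2 ↥E := by
    intro x
    refine ⟨1, ?_⟩
    ext1
    push_cast
    rw [pow_two]
    exact hE2 _ x.2
  obtain ⟨n, hn⟩ := IsPGroup.iff_card.mp hp
  have hn3 : 3 ≤ n := by
    by_contra h
    have : n ≤ 2 := by omega
    have h1 : 2 ^ n ≤ 2 ^ 2 := Nat.pow_le_pow_right (by norm_num) this
    omega
  have hd : 2 ^ 3 ∣ Nat.card ↥E := by rw [hn]; exact pow_dvd_pow 2 hn3
  obtain ⟨K, hK⟩ := Sylow.exists_subgroup_card_pow_prime 2 hd
  have hcommE : ∀ x ∈ E, ∀ y ∈ E, x * y = y * x := by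
    intro x hx y hy
    have h1 := inv_eq_of_mul_eq_one_right (hE2 _ (E.mul_mem hx hy))
    have hx1 := inv_eq_of_mul_eq_one_right (hE2 x hx)
    have hy1 := inv_eq_of_mul_eq_one_right (hE2 y hy)
    rw [← h1, mul_inv_rev, hx1, hy1]
  have hcard : Nat.card ↥(K.map E.subtype) = 8 := by
    rw [Nat.card_congr (K.equivMapOfInjective E.subtype E.subtype_injective).toEquiv.symm, hK]
    norm_num
  refine ⟨K.map E.subtype, Subgroup.map_subtype_le K, ⟨⟨fun a b => Subtype.ext ?_⟩⟩, ?_, hcard⟩
  · exact hcommE _ (Subgroup.map_subtype_le K a.2) _ (Subgroup.map_subtype_le K b.2)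
  · apply not_cyclic_of_pow_four hcard
    intro a ha
    have h1 := hE2 a (Subgroup.map_subtype_le K ha)
    have : a ^ 4 = (a * a) * (a * a) := by simp only [pow_succ, pow_zero, one_mul, mul_assoc]
    rw [this, h1, one_mul]

/-- The group `{1, z, y, y z}`. -/
theorem exists_four (z y : G) (hz : z * z = 1) (hzy : z * y = y * z) (hy : y * y = 1 ∨ y * y = z)
    (hz1 : z ≠ 1) (hy1 : y ≠ 1) (hyz : y ≠ z) :
    ∃ E : Subgroup G, Nat.card ↥E = 4 ∧ (∀ x, x ∈ E ↔ x = 1 ∨ x = z ∨ x = y ∨ x = y * z) := by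
  have hmul : ∀ a b : G, (a = 1 ∨ a = z ∨ a = y ∨ a = y * z) → (b = 1 ∨ b = z ∨ b = y ∨ b = y * z) →
      (a * b = 1 ∨ a * b = z ∨ a * b = y ∨ a * b = y * z) := by
    have e1 : z * (y * z) = y := by rw [← mul_assoc, hzy, mul_assoc, hz, mul_one]
    have e2 : y * z * z = y := by rw [mul_assoc, hz, mul_one]
    have e3 : y * z * y = y * y * z := by rw [mul_assoc, hzy, ← mul_assoc]
    have e4 : y * z * (y * z) = y * y := by rw [mul_assoc, e1]
    have e5 : y * (y * z) = y * y * z := by rw [mul_assoc]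
    rintro a b (rfl | rfl | rfl | rfl) (rfl | rfl | rfl | rfl)
    · simp
    · simp
    · simp
    · simp
    · simp
    · rw [hz]; simp
    · rw [hzy]; simp
    · rw [e1]; simp
    · simp
    · simp
    · rcases hy with h | h <;> rw [h] <;> simp
    · rw [e5]; rcases hy with h | h
      · rw [h]; simp
      · rw [h, hz]; simp
    · simp
    · rw [e2]; simp
    · rw [e3]; rcases hy with h | h
      · rw [h]; simp
      · rw [h, hz]; simp
    · rw [e4]; rcases hy with h | h <;> rw [h] <;> simp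
  have hfour : ∀ a : G, (a = 1 ∨ a = z ∨ a = y ∨ a = y * z) → a * (a * (a * a)) = 1 := by
    have e1 : z * (y * z) = y := by rw [← mul_assoc, hzy, mul_assoc, hz, mul_one]
    have e4 : y * z * (y * z) = y * y := by rw [mul_assoc, e1]
    have hyy : (y * y) * (y * y) = 1 := by rcases hy with h | h <;> rw [h] <;> simp [hz]
    rintro a (rfl | rfl | rfl | rfl)
    · simp
    · rw [hz, mul_one, hz]
    · rw [← mul_assoc]; exact hyy
    · rw [← mul_assoc, e4]; exact hyy
  let E : Subgroup G :=
    { carrier := {x | x = 1 ∨ x = z ∨ x = y ∨ x = y * z}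
      one_mem' := Or.inl rfl
      mul_mem' := fun {a b} ha hb => hmul a b ha hb
      inv_mem' := by
        intro a ha
        have h1 : a⁻¹ = a * (a * a) := inv_eq_of_mul_eq_one_right (hfour a ha)
        change a⁻¹ = 1 ∨ a⁻¹ = z ∨ a⁻¹ = y ∨ a⁻¹ = y * z
        rw [h1]
        exact hmul _ _ ha (hmul _ _ ha ha) }
  refine ⟨E, ?_, fun x => Iff.rfl⟩
  have h1 : (E : Set G) = {1, z, y, y * z} := by
    ext x
    simp only [Set.mem_insert_iff, Set.mem_singleton_iff]
    rfl
  have h2 : Nat.card ↥E = Set.ncard (E : Set G) := rfl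
  rw [h2, h1, Set.ncard_insert_of_notMem, Set.ncard_insert_of_notMem, Set.ncard_insert_of_notMem,
    Set.ncard_singleton]
  · simp only [Set.mem_singleton_iff]
    intro h
    exact hz1 (by simpa using h.symm)
  · simp only [Set.mem_insert_iff, Set.mem_singleton_iff, not_or]
    refine ⟨fun h => hyz h.symm, fun h => ?_⟩
    exact hy1 (by simpa using h.symm)
  · simp only [Set.mem_insert_iff, Set.mem_singleton_iff, not_or]
    refine ⟨fun h => hz1 h.symm, fun h => hy1 h.symm, fun h => ?_⟩
    apply hyz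
    have : y * z * z = z := by rw [← h, one_mul]
    rw [mul_assoc, hz, mul_one] at this
    exact this

/-- Quaternion groups of order `8`, with coordinates. -/
structure Q8 (Y : Subgroup G) (z i j : G) : Prop where
  hi : i ∈ Y
  hj : j ∈ Y
  ii : i * i = z
  jj : j * j = z
  zz : z * z = 1
  z1 : z ≠ 1
  ji : j * i = i * j * z
  gen : ∀ x ∈ Y, x = 1 ∨ x = z ∨ x = i ∨ x = i * z ∨ x = j ∨ x = j * z ∨ x = i * j ∨ x = i * j * z

namespace Q8

variable {Y : Subgroup G} {z i j : G}

theorem hz (q : Q8 Y z i j) : z ∈ Y := by rw [← q.ii]; exact Y.mul_mem q.hi q.hi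

theorem zi (q : Q8 Y z i j) : z * i = i * z := by rw [← q.ii]; group

theorem zj (q : Q8 Y z i j) : z * j = j * z := by rw [← q.jj]; group

theorem zc (q : Q8 Y z i j) : ∀ x ∈ Y, z * x = x * z := by
  intro x hx
  have c1 : Commute z i := q.zi
  have c2 : Commute z j := q.zj
  have c3 : Commute z z := Commute.refl z
  rcases q.gen x hx with rfl | rfl | rfl | rfl | rfl | rfl | rfl | rfl
  · simp
  · rfl
  · exact c1
  · exact c1.mul_right c3
  · exact c2
  · exact c2.mul_right c3
  · exact c1.mul_right c2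
  · exact (c1.mul_right c2).mul_right c3

theorem i_ne_one (q : Q8 Y z i j) : i ≠ 1 := by
  intro h; apply q.z1; rw [← q.ii, h, one_mul]

theorem i_ne_z (q : Q8 Y z i j) : i ≠ z := by
  intro h
  apply q.z1
  have h1 := q.ii
  rw [h, q.zz] at h1
  exact h1.symm

/-- squares -/
theorem sq (q : Q8 Y z i j) : ∀ x ∈ Y, x = 1 ∨ x = z ∨ x * x = z := by
  intro x hx
  have e0 : ∀ w, z * w = w * z → (w * z) * (w * z) = w * w := by
    intro w hw
    calc w * z * (w * z) = w * (z * w) * z := by group
      _ = w * (w * z) * z := by rw [hw]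
      _ = w * w * (z * z) := by group
      _ = w * w := by rw [q.zz, mul_one]
  have eij : (i * j) * (i * j) = z := by
    calc i * j * (i * j) = i * (j * i) * j := by group
      _ = i * (i * j * z) * j := by rw [q.ji]
      _ = i * i * j * (z * j) := by group
      _ = z * j * (j * z) := by rw [q.ii, q.zj]
      _ = z * (j * j) * z := by group
      _ = z * z * z := by rw [q.jj]
      _ = z := by rw [q.zz, one_mul]
  rcases q.gen x hx with h | h | h | h | h | h | h | h
  · exact Or.inl h
  · exact Or.inr (Or.inl h)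
  · right; right; rw [h, q.ii]
  · right; right; rw [h, e0 i q.zi, q.ii]
  · right; right; rw [h, q.jj]
  · right; right; rw [h, e0 j q.zj, q.jj]
  · right; right; rw [h, eij]
  · right; right; rw [h, e0 _ (q.zc _ (Y.mul_mem q.hi q.hj)), eij]

/-- commutation -/
theorem comm_i (q : Q8 Y z i j) : ∀ x ∈ Y, (x * i = i * x ∧ (x = 1 ∨ x = z ∨ x = i ∨ x = i * z)) ∨
    (x * i = i * x * z ∧ (x = j ∨ x = j * z ∨ x = i * j ∨ x = i * j * z)) := by
  intro x hx
  rcases q.gen x hx with h | h | h | h | h | h | h | h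
  · left; refine ⟨by rw [h]; simp, by simp [h]⟩
  · left; refine ⟨by rw [h]; exact q.zi, by simp [h]⟩
  · left; refine ⟨by rw [h], by simp [h]⟩
  · left; refine ⟨?_, by simp [h]⟩
    rw [h, mul_assoc, q.zi]
  · right; refine ⟨by rw [h]; exact q.ji, by simp [h]⟩
  · right; refine ⟨?_, by simp [h]⟩
    rw [h]
    calc j * z * i = j * (z * i) := by group
      _ = (j * i) * z := by rw [q.zi]; group
      _ = i * (j * z) * z := by rw [q.ji]; group
  · right; refine ⟨?_, by simp [h]⟩
    rw [h]
    calc i * j * i = i * (j * i) := by group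
      _ = i * (i * j) * z := by rw [q.ji]; group
  · right; refine ⟨?_, by simp [h]⟩
    rw [h]
    calc i * j * z * i = i * j * (z * i) := by group
      _ = i * (j * i) * z := by rw [q.zi]; group
      _ = i * (i * j * z) * z := by rw [q.ji]

theorem ij (q : Q8 Y z i j) : i * j = j * i * z := by
  rw [q.ji, mul_assoc, q.zz, mul_one]

theorem center (q : Q8 Y z i j) {x : G} (hx : x ∈ Y) (h1 : x * i = i * x) (h2 : x * j = j * x) :
    x = 1 ∨ x = z := by
  rcases q.comm_i x hx with ⟨_, h | h | h | h⟩ | ⟨h, _⟩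
  · exact Or.inl h
  · exact Or.inr h
  · exfalso
    rw [h, q.ij] at h2
    exact q.z1 (by simpa using h2)
  · exfalso
    rw [h] at h2
    have e1 : i * z * j = (j * i * z) * z := by
      calc i * z * j = i * (z * j) := by group
        _ = (i * j) * z := by rw [q.zj]; group
        _ = (j * i * z) * z := by rw [q.ij]
    rw [e1] at h2
    have : j * (i * z) * z = j * (i * z) * 1 := by
      calc j * (i * z) * z = j * i * z * z := by group
        _ = j * (i * z) := h2
        _ = j * (i * z) * 1 := (mul_one _).symm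
    exact q.z1 (mul_left_cancel this)
  · exfalso
    rw [h1] at h
    exact q.z1 (by simpa using h)

/-- the subgroup generated by `i` -/
theorem exists_E (q : Q8 Y z i j) : ∃ E : Subgroup G, Nat.card ↥E = 4 ∧ E ≤ Y ∧
    (∀ x, x ∈ E ↔ x = 1 ∨ x = z ∨ x = i ∨ x = i * z) := by
  obtain ⟨E, h1, h2⟩ := exists_four z i q.zz q.zi (Or.inr q.ii) q.z1 q.i_ne_one q.i_ne_z
  refine ⟨E, h1, ?_, h2⟩
  intro x hx
  rcases (h2 x).mp hx with rfl | rfl | rfl | rfl
  · exact Y.one_mem
  · exact q.hz
  · exact q.hi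
  · exact Y.mul_mem q.hi q.hz

theorem card [Finite G] (q : Q8 Y z i j) : Nat.card ↥Y = 8 := by
  obtain ⟨E, hE4, hEY, hE⟩ := q.exists_E
  have hrel : E.relIndex Y = 2 := by
    rw [relIndex_eq_two_iff]
    have hcom : ∀ x ∈ Y, x ∈ E ↔ x * i = i * x := by
      intro x hx
      rcases q.comm_i x hx with ⟨h1, h2⟩ | ⟨h1, h2⟩
      · exact ⟨fun _ => h1, fun _ => (hE x).mpr h2⟩
      · constructor
        · intro hxE
          rcases (hE x).mp hxE with h | h | h | h
          · rw [h]; simp
          · rw [h]; exact q.zi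
          · rw [h]
          · rw [h, mul_assoc, q.zi]
        · intro h
          rw [h] at h1
          exact absurd (by simpa using h1) q.z1
    have hncom : ∀ x ∈ Y, x ∉ E → x * i = i * x * z := by
      intro x hx hxE
      rcases q.comm_i x hx with ⟨h1, h2⟩ | ⟨h1, h2⟩
      · exact absurd ((hE x).mpr h2) hxE
      · exact h1
    have hjE : j ∉ E := by
      intro h
      have h2 := (hcom j q.hj).mp h
      rw [q.ji] at h2
      exact q.z1 (by simpa using h2)
    refine ⟨j, q.hj, fun b hb => ?_⟩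
    by_cases hbE : b ∈ E
    · right
      refine ⟨hbE, fun h => hjE ?_⟩
      have := E.mul_mem (E.inv_mem hbE) h
      simpa using this
    · left
      refine ⟨(hcom _ (Y.mul_mem hb q.hj)).mpr ?_, hbE⟩
      calc b * j * i = b * (j * i) := by group
        _ = (b * i) * (j * z) := by rw [q.ji]; group
        _ = i * b * (z * j) * z := by rw [hncom b hb hbE]; group
        _ = i * (b * j) * (z * z) := by rw [q.zj]; group
        _ = i * (b * j) := by rw [q.zz, mul_one]
  have h5 := Subgroup.card_mul_index (E.subgroupOf Y)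
  rw [Nat.card_congr (Subgroup.subgroupOfEquivOfLe hEY).toEquiv] at h5
  change Nat.card ↥E * E.relIndex Y = Nat.card ↥Y at h5
  rw [hrel, hE4] at h5
  exact h5.symm

/-- An element normalising the three subgroups of order `4` acts as an element of `Y`. -/
theorem fix (q : Q8 Y z i j) {n : G} (hni : n * i * n⁻¹ = i ∨ n * i * n⁻¹ = i * z)
    (hnj : n * j * n⁻¹ = j ∨ n * j * n⁻¹ = j * z) : ∃ y ∈ Y, ∀ x ∈ Y, (y * n) * x = x * (y * n) := by
  -- it is enough to commute with `i` and `j`
  have key : ∀ m : G, m * i * m⁻¹ = i → m * j * m⁻¹ = j → ∀ x ∈ Y, m * x = x * m := by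
    intro m h1 h2 x hx
    have c1 : Commute m i := by
      change m * i = i * m
      nth_rewrite 2 [← h1]; group
    have c2 : Commute m j := by
      change m * j = j * m
      nth_rewrite 2 [← h2]; group
    have c3 : Commute m z := by rw [← q.ii]; exact c1.mul_right c1
    rcases q.gen x hx with h | h | h | h | h | h | h | h <;> rw [h]
    · simp
    · exact c3
    · exact c1
    · exact c1.mul_right c3
    · exact c2
    · exact c2.mul_right c3
    · exact c1.mul_right c2
    · exact (c1.mul_right c2).mul_right c3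
  have cz : ∀ y ∈ Y, y * z * y⁻¹ = z := by
    intro y hy
    rw [← q.zc y hy]; group
  have ciji : i * j * i⁻¹ = j * z := by rw [q.ij, mul_assoc j i z, ← q.zi]; group
  have cjij : j * i * j⁻¹ = i * z := by rw [q.ji, mul_assoc i j z, ← q.zj]; group
  rcases hni with hi | hi <;> rcases hnj with hj | hj
  · exact ⟨1, Y.one_mem, by rw [one_mul]; exact key n hi hj⟩
  · refine ⟨i, q.hi, key _ ?_ ?_⟩
    · calc i * n * i * (i * n)⁻¹ = i * (n * i * n⁻¹) * i⁻¹ := by group
        _ = i := by rw [hi]; group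
    · calc i * n * j * (i * n)⁻¹ = i * (n * j * n⁻¹) * i⁻¹ := by group
        _ = (i * j * i⁻¹) * (i * z * i⁻¹) := by rw [hj]; group
        _ = j * z * z := by rw [ciji, cz i q.hi]
        _ = j := by rw [mul_assoc, q.zz, mul_one]
  · refine ⟨j, q.hj, key _ ?_ ?_⟩
    · calc j * n * i * (j * n)⁻¹ = j * (n * i * n⁻¹) * j⁻¹ := by group
        _ = (j * i * j⁻¹) * (j * z * j⁻¹) := by rw [hi]; group
        _ = i * z * z := by rw [cjij, cz j q.hj]
        _ = i := by rw [mul_assoc, q.zz, mul_one]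
    · calc j * n * j * (j * n)⁻¹ = j * (n * j * n⁻¹) * j⁻¹ := by group
        _ = j := by rw [hj]; group
  · refine ⟨i * j, Y.mul_mem q.hi q.hj, key _ ?_ ?_⟩
    · calc i * j * n * i * (i * j * n)⁻¹ = i * (j * (n * i * n⁻¹) * j⁻¹) * i⁻¹ := by group
        _ = i * ((j * i * j⁻¹) * (j * z * j⁻¹)) * i⁻¹ := by rw [hi]; group
        _ = i * (i * z * z) * i⁻¹ := by rw [cjij, cz j q.hj]
        _ = i := by rw [mul_assoc i z z, q.zz]; group
    · calc i * j * n * j * (i * j * n)⁻¹ = i * (j * (n * j * n⁻¹) * j⁻¹) * i⁻¹ := by group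
        _ = i * (j * (j * z) * j⁻¹) * i⁻¹ := by rw [hj]
        _ = i * (j * (j * z * j⁻¹)) * i⁻¹ := by group
        _ = i * (j * z) * i⁻¹ := by rw [cz j q.hj]
        _ = (i * j * i⁻¹) * (i * z * i⁻¹) := by group
        _ = j * z * z := by rw [ciji, cz i q.hi]
        _ = j := by rw [mul_assoc, q.zz, mul_one]

end Q8

end Cfsg.Agent.H586.NoAbelianEight
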