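import Mathlib.GroupTheory.Nilpotent
import Mathlib.GroupTheory.Sylow
import Mathlib.GroupTheory.Index
import Cfsg.Agent.S0119

/-!
# A group `H` of odd order acting by conjugation on `2`-subgroups

All groups are subgroups of a fixed finite group `G`; `Cen H Y`: `H` centralises `Y`.
-/

set_option autoImplicit false

namespace Cfsg.Agent.H586.OddAct

open Subgroup

variable {G : Type*} [Group G]

/-- `H` centralises `Y`. -/
def Cen (H Y : Subgroup G) : Prop := ∀ h ∈ H, ∀ y ∈ Y, h * y * h⁻¹ = y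

theorem Cen.mono {H Y Y' : Subgroup G} (h : Cen H Y) (hY : Y' ≤ Y) : Cen H Y' :=
  fun a ha y hy => h a ha y (hY hy)

theorem cen_iff {H Y : Subgroup G} : Cen H Y ↔ H ≤ centralizer (Y : Set G) := by
  constructor
  · intro h a ha
    rw [mem_centralizer_iff]
    intro y hy
    nth_rewrite 1 [← h a ha y hy]; group
  · intro h a ha y hy
    rw [← mem_centralizer_iff.mp (h ha) y hy]; group

/-- If `h` has odd order, `c` is a `2`-element commuting with `h` and `h y h⁻¹ = y c`, then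
`c = 1`. -/
theorem stab {h y c : G} (hh : Odd (orderOf h)) {n : ℕ} (hc : c ^ 2 ^ n = 1) (hhc : h * c * h⁻¹ = c)
    (hy : h * y * h⁻¹ = y * c) : c = 1 := by
  have key : ∀ k : ℕ, h ^ k * y * (h ^ k)⁻¹ = y * c ^ k := by
    intro k
    induction k with
    | zero => simp
    | succ k ih =>
      have e : h ^ (k + 1) * y * (h ^ (k + 1))⁻¹ = h * (h ^ k * y * (h ^ k)⁻¹) * h⁻¹ := by
        rw [pow_succ']; group
      rw [e, ih]
      have e2 : h * (y * c ^ k) * h⁻¹ = (h * y * h⁻¹) * (h * c ^ k * h⁻¹) := by group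
      have e3 : h * c ^ k * h⁻¹ = c ^ k := by rw [← conj_pow, hhc]
      rw [e2, e3, hy, pow_succ']; group
  have h1 := key (orderOf h)
  rw [pow_orderOf_eq_one] at h1
  have h2 : c ^ orderOf h = 1 := by
    have h3 : y * 1 = y * c ^ orderOf h := by rw [← h1]; group
    exact (mul_left_cancel h3).symm
  have h3 := orderOf_dvd_of_pow_eq_one h2
  have h4 := orderOf_dvd_of_pow_eq_one hc
  have h5 : Nat.Coprime (orderOf h) (2 ^ n) := (Nat.coprime_two_right.mpr hh).pow_right n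
  exact orderOf_eq_one_iff.mp (Nat.eq_one_of_dvd_coprimes h5 h3 h4)

theorem odd_orderOf [Finite G] {H : Subgroup G} (hH : Odd (Nat.card ↥H)) {h : G} (hh : h ∈ H) :
    Odd (orderOf h) := by
  have h1 : orderOf (⟨h, hh⟩ : ↥H) = orderOf h := Subgroup.orderOf_mk h hh
  rw [← h1]
  exact Odd.of_dvd_nat hH (orderOf_dvd_natCard _)

theorem two_pow {Y : Subgroup G} (hY : IsPGroup 2 ↥Y) {c : G} (hc : c ∈ Y) : ∃ n : ℕ, c ^ 2 ^ n = 1 := by
  obtain ⟨n, hn⟩ := hY ⟨c, hc⟩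
  exact ⟨n, by simpa using congrArg Subtype.val hn⟩

/-- Coprime action: trivial on `D` and on `Y` modulo `D` implies trivial on `Y`. -/
theorem cen_of_chain [Finite G] {H Y D : Subgroup G} (hH : Odd (Nat.card ↥H)) (hY : IsPGroup 2 ↥Y)
    (hD : Cen H D) (hDY : D ≤ Y) (h : ∀ a ∈ H, ∀ y ∈ Y, y⁻¹ * (a * y * a⁻¹) ∈ D) : Cen H Y := by
  intro a ha y hy
  obtain ⟨n, hn⟩ := two_pow hY (hDY (h a ha y hy))
  have h1 := stab (h := a) (y := y) (c := y⁻¹ * (a * y * a⁻¹)) (odd_orderOf hH ha) hn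
    (hD a ha _ (h a ha y hy)) (by group)
  exact (inv_mul_eq_one.mp h1).symm

/-- Trivial on an index `2` subgroup implies trivial. -/
theorem cen_of_index_two [Finite G] {H Y B : Subgroup G} (hH : Odd (Nat.card ↥H))
    (hY : IsPGroup 2 ↥Y) (hHY : H ≤ normalizer (Y : Set G)) (hHB : H ≤ normalizer (B : Set G))
    (hBY : B ≤ Y) (hrel : B.relIndex Y = 2) (hB : Cen H B) : Cen H Y := by
  apply cen_of_chain hH hY hB hBY
  intro a ha y hy
  have hay : a * y * a⁻¹ ∈ Y := le_normalizer_iff.mp hHY a ha y hy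
  by_cases hyB : y ∈ B
  · rw [hB a ha y hyB]; simp
  · have hayB : a * y * a⁻¹ ∉ B := by
      intro h
      apply hyB
      have := le_normalizer_iff.mp hHB a⁻¹ (H.inv_mem ha) _ h
      have e : a⁻¹ * (a * y * a⁻¹) * a⁻¹⁻¹ = y := by group
      rwa [e] at this
    have hidx : (B.subgroupOf Y).index = 2 := hrel
    have h1 := (Subgroup.mul_mem_iff_of_index_two hidx
      (a := (⟨y, hy⟩ : ↥Y)⁻¹) (b := ⟨a * y * a⁻¹, hay⟩)).mpr (by
        rw [Subgroup.inv_mem_iff, mem_subgroupOf, mem_subgroupOf]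
        exact ⟨fun h => absurd h hyB, fun h => absurd h hayB⟩)
    rw [mem_subgroupOf] at h1
    exact h1

/-- Trivial on groups of order `2`. -/
theorem cen_of_card_two [Finite G] {H B : Subgroup G} (hHB : H ≤ normalizer (B : Set G))
    (hB : Nat.card ↥B = 2) : Cen H B := by
  intro a ha b hb
  by_cases hb1 : b = 1
  · rw [hb1]; group
  · have h1 : a * b * a⁻¹ ∈ B := le_normalizer_iff.mp hHB a ha b hb
    have h2 : a * b * a⁻¹ ≠ 1 := by
      intro h
      apply hb1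
      have : a * b * a⁻¹ = a * 1 * a⁻¹ := by rw [h]; group
      exact mul_left_cancel (mul_right_cancel this)
    have := (Nat.card_eq_two_iff' (1 : ↥B)).mp hB
    obtain ⟨x, _, hx⟩ := this
    have e1 := hx ⟨b, hb⟩ (fun h => hb1 (congrArg Subtype.val h))
    have e2 := hx ⟨a * b * a⁻¹, h1⟩ (fun h => h2 (congrArg Subtype.val h))
    exact congrArg Subtype.val (e2.trans e1.symm)

/-- The commutator `[Y, H]`. -/
def cm (Y H : Subgroup G) : Subgroup G :=
  closure {x | ∃ y ∈ Y, ∃ h ∈ H, x = y⁻¹ * (h * y * h⁻¹)}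

theorem cm_le {Y H : Subgroup G} (hHY : H ≤ normalizer (Y : Set G)) : cm Y H ≤ Y := by
  unfold cm
  rw [closure_le]
  rintro _ ⟨y, hy, h, hh, rfl⟩
  exact Y.mul_mem (Y.inv_mem hy) (le_normalizer_iff.mp hHY h hh y hy)

theorem cm_inv {Y H : Subgroup G} (hHY : H ≤ normalizer (Y : Set G)) :
    H ≤ normalizer (cm Y H : Set G) := by
  unfold cm
  rw [le_normalizer_closure_iff]
  rintro k hk _ ⟨y, hy, h, hh, rfl⟩
  apply Subgroup.subset_closure
  refine ⟨k * y * k⁻¹, le_normalizer_iff.mp hHY k hk y hy, k * h * k⁻¹,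
    H.mul_mem (H.mul_mem hk hh) (H.inv_mem hk), by group⟩

theorem cen_of_cen_cm [Finite G] {H Y : Subgroup G} (hH : Odd (Nat.card ↥H))
    (hY : IsPGroup 2 ↥Y) (hHY : H ≤ normalizer (Y : Set G)) (h : Cen H (cm Y H)) : Cen H Y :=
  cen_of_chain hH hY h (cm_le hHY) (fun a ha y hy => Subgroup.subset_closure ⟨y, hy, a, ha, rfl⟩)

/-- `Y` is minimal among the `H`-invariant subgroups on which `H` acts nontrivially. -/
structure Min (H Y : Subgroup G) : Prop where
  two : IsPGroup 2 ↥Y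
  inv : H ≤ normalizer (Y : Set G)
  nt : ¬ Cen H Y
  min : ∀ D : Subgroup G, D ≤ Y → H ≤ normalizer (D : Set G) → ¬ Cen H D → D = Y

theorem Min.cm_eq [Finite G] {H Y : Subgroup G} (hH : Odd (Nat.card ↥H)) (m : Min H Y) :
    cm Y H = Y :=
  m.min _ (cm_le m.inv) (cm_inv m.inv) (fun h => m.nt (cen_of_cen_cm hH m.two m.inv h))

theorem exists_min [Finite G] {H Q : Subgroup G} (hQ : IsPGroup 2 ↥Q)
    (hHQ : H ≤ normalizer (Q : Set G)) (hnt : ¬ Cen H Q) : ∃ Y ≤ Q, Min H Y := by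
  obtain ⟨Y, hY⟩ := (Set.toFinite {Y : Subgroup G | Y ≤ Q ∧ H ≤ normalizer (Y : Set G) ∧
    ¬ Cen H Y}).exists_minimal ⟨Q, le_refl _, hHQ, hnt⟩
  obtain ⟨⟨hYQ, hHY, hYnt⟩, hmin⟩ := hY
  refine ⟨Y, hYQ, hQ.to_le hYQ, hHY, hYnt, ?_⟩
  intro D hD hHD hDnt
  exact le_antisymm hD (hmin (y := D) ⟨hD.trans hYQ, hHD, hDnt⟩ hD)

/-- A minimal abelian `Y` has exponent `2`. -/
theorem Min.sq_one [Finite G] {H Y : Subgroup G} (hH : Odd (Nat.card ↥H)) (m : Min H Y)
    (hab : ∀ x ∈ Y, ∀ y ∈ Y, x * y = y * x) : ∀ x ∈ Y, x * x = 1 := by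
  -- squares
  let D : Subgroup G :=
    { carrier := {x | ∃ y ∈ Y, x = y * y}
      one_mem' := ⟨1, Y.one_mem, by simp⟩
      mul_mem' := by
        rintro _ _ ⟨x, hx, rfl⟩ ⟨y, hy, rfl⟩
        refine ⟨x * y, Y.mul_mem hx hy, ?_⟩
        have := hab x hx y hy
        calc x * x * (y * y) = x * (x * y) * y := by group
          _ = x * (y * x) * y := by rw [this]
          _ = x * y * (x * y) := by group
      inv_mem' := by
        rintro _ ⟨x, hx, rfl⟩
        exact ⟨x⁻¹, Y.inv_mem hx, by group⟩ }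
  let S : Subgroup G :=
    { carrier := {x | x ∈ Y ∧ x * x = 1}
      one_mem' := ⟨Y.one_mem, by simp⟩
      mul_mem' := by
        rintro x y ⟨hx, hx2⟩ ⟨hy, hy2⟩
        refine ⟨Y.mul_mem hx hy, ?_⟩
        have := hab x hx y hy
        calc x * y * (x * y) = x * (y * x) * y := by group
          _ = x * (x * y) * y := by rw [this]
          _ = (x * x) * (y * y) := by group
          _ = 1 := by rw [hx2, hy2, one_mul]
      inv_mem' := by
        rintro x ⟨hx, hx2⟩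
        refine ⟨Y.inv_mem hx, ?_⟩
        rw [← mul_inv_rev, hx2, inv_one] }
  have hDY : D ≤ Y := by
    rintro _ ⟨y, hy, rfl⟩; exact Y.mul_mem hy hy
  have hHD : H ≤ normalizer (D : Set G) := by
    rw [le_normalizer_iff]
    rintro h hh _ ⟨y, hy, rfl⟩
    exact ⟨h * y * h⁻¹, le_normalizer_iff.mp m.inv h hh y hy, by group⟩
  have hYbot : Y ≠ ⊥ := by
    intro h
    apply m.nt
    intro a _ y hy
    rw [h, mem_bot] at hy
    rw [hy]; group
  have hDne : D ≠ Y := by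
    intro hDY'
    -- squaring is surjective on Y, hence injective
    let f : ↥Y → ↥Y := fun y => y * y
    have hf : Function.Surjective f := by
      rintro ⟨x, hx⟩
      rw [← hDY'] at hx
      obtain ⟨y, hy, rfl⟩ := hx
      exact ⟨⟨y, hy⟩, rfl⟩
    have hf' : Function.Injective f := Finite.injective_iff_surjective.mpr hf
    have hodd : ¬ 2 ∣ Nat.card ↥Y := by
      intro h2
      have : Fact (Nat.Prime 2) := ⟨Nat.prime_two⟩
      obtain ⟨x, hx⟩ := exists_prime_orderOf_dvd_card' 2 h2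
      have h3 : f x = f 1 := by
        change x * x = 1 * 1
        rw [← pow_two, ← hx, pow_orderOf_eq_one, one_mul]
      have h4 := hf' h3
      rw [h4, orderOf_one] at hx
      omega
    have : Fact (Nat.Prime 2) := ⟨Nat.prime_two⟩
    obtain ⟨n, hn⟩ := IsPGroup.iff_card.mp m.two
    rcases n with _ | n
    · rw [pow_zero] at hn
      exact hYbot (Subgroup.card_eq_one.mp hn)
    · apply hodd
      rw [hn, pow_succ]
      exact dvd_mul_left _ _
  have hDcen : Cen H D := by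
    by_contra hc
    exact hDne (m.min D hDY hHD hc)
  have hcmS : cm Y H ≤ S := by
    unfold cm
    rw [closure_le]
    rintro _ ⟨y, hy, h, hh, rfl⟩
    have hy' := le_normalizer_iff.mp m.inv h hh y hy
    refine ⟨Y.mul_mem (Y.inv_mem hy) hy', ?_⟩
    have h1 := hDcen h hh (y * y) ⟨y, hy, rfl⟩
    have h2 : (h * y * h⁻¹) * (h * y * h⁻¹) = y * y := by
      rw [← h1]; group
    have h3 := hab y hy _ hy'
    calc y⁻¹ * (h * y * h⁻¹) * (y⁻¹ * (h * y * h⁻¹))
        = y⁻¹ * ((h * y * h⁻¹) * y) * y⁻¹ * y⁻¹ * (h * y * h⁻¹) := by group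
      _ = y⁻¹ * (y * (h * y * h⁻¹)) * y⁻¹ * y⁻¹ * (h * y * h⁻¹) := by rw [h3]
      _ = y⁻¹ * y⁻¹ * (y * y) * ((h * y * h⁻¹) * y⁻¹ * y⁻¹ * (h * y * h⁻¹)) := by group
      _ = (h * y * h⁻¹) * y⁻¹ * y⁻¹ * (h * y * h⁻¹) := by group
      _ = y⁻¹ * (y * (h * y * h⁻¹)) * y⁻¹ * y⁻¹ * (h * y * h⁻¹) := by group
      _ = y⁻¹ * ((h * y * h⁻¹) * y) * y⁻¹ * y⁻¹ * (h * y * h⁻¹) := by rw [h3]
      _ = y⁻¹ * (h * y * h⁻¹) * y⁻¹ * (h * y * h⁻¹) := by group
      _ = y⁻¹ * y⁻¹ * (y * (h * y * h⁻¹)) * y⁻¹ * (h * y * h⁻¹) := by group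
      _ = y⁻¹ * y⁻¹ * ((h * y * h⁻¹) * y) * y⁻¹ * (h * y * h⁻¹) := by rw [h3]
      _ = y⁻¹ * y⁻¹ * ((h * y * h⁻¹) * (h * y * h⁻¹)) := by group
      _ = y⁻¹ * y⁻¹ * (y * y) := by rw [h2]
      _ = 1 := by group
  intro x hx
  rw [← m.cm_eq hH] at hx
  exact (hcmS hx).2

/-- A minimal nonabelian `Y` is special. -/
theorem Min.special [Finite G] {H Y : Subgroup G} (hH : Odd (Nat.card ↥H)) (m : Min H Y)
    (hnab : ¬ ∀ x ∈ Y, ∀ y ∈ Y, x * y = y * x) : Cfsg.IsSpecial 2 ↥Y := by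
  have hf2 : Fact (Nat.Prime 2) := ⟨Nat.prime_two⟩
  let A : Subgroup (MulAut ↥Y) := (H.subgroupOf (normalizer (Y : Set G))).map Y.normalizerMonoidHom
  have hA : ∀ h ∈ H, ∃ a ∈ A, ∀ y : ↥Y, ((a y : ↥Y) : G) = h * y * h⁻¹ := by
    intro h hh
    refine ⟨Y.normalizerMonoidHom ⟨h, m.inv hh⟩, mem_map_of_mem _ hh, fun y => ?_⟩
    simp
  have hA' : ∀ a ∈ A, ∃ h ∈ H, ∀ y : ↥Y, ((a y : ↥Y) : G) = h * y * h⁻¹ := by
    rintro _ ⟨⟨h, hN⟩, hh, rfl⟩
    exact ⟨h, hh, fun y => by simp⟩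
  have hcard : Nat.Coprime (Nat.card ↥A) 2 := by
    rw [Nat.coprime_two_right]
    apply Odd.of_dvd_nat hH
    have h1 : Nat.card ↥A ∣ Nat.card ↥(H.subgroupOf (normalizer (Y : Set G))) :=
      Subgroup.card_map_dvd _ _
    rwa [Nat.card_congr (Subgroup.subgroupOfEquivOfLe m.inv).toEquiv] at h1
  have hgen : Subgroup.closure {x : ↥Y | ∃ g : ↥Y, ∃ a ∈ A, x = g⁻¹ * a g} = ⊤ := by
    have hinj : Function.Injective (Subgroup.map Y.subtype) :=
      Subgroup.map_injective Y.subtype_injective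
    apply hinj
    rw [MonoidHom.map_closure]
    have h1 : (Y.subtype '' {x : ↥Y | ∃ g : ↥Y, ∃ a ∈ A, x = g⁻¹ * a g}) =
        {x | ∃ y ∈ Y, ∃ h ∈ H, x = y⁻¹ * (h * y * h⁻¹)} := by
      ext x
      constructor
      · rintro ⟨_, ⟨g, a, ha, rfl⟩, rfl⟩
        obtain ⟨h, hh, hah⟩ := hA' a ha
        refine ⟨g, g.2, h, hh, ?_⟩
        rw [← hah]; rfl
      · rintro ⟨y, hy, h, hh, rfl⟩
        obtain ⟨a, ha, hah⟩ := hA h hh
        refine ⟨(⟨y, hy⟩ : ↥Y)⁻¹ * a ⟨y, hy⟩, ⟨⟨y, hy⟩, a, ha, rfl⟩, ?_⟩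
        rw [Subgroup.coe_subtype, Subgroup.coe_mul, hah]; rfl
    rw [h1]
    have h2 : Subgroup.map Y.subtype ⊤ = Y := by
      rw [← MonoidHom.range_eq_map, Subgroup.range_subtype]
    rw [h2]
    exact m.cm_eq hH
  have hchar : ∀ K : Subgroup ↥Y, K.Characteristic → IsMulCommutative K →
      ∀ a ∈ A, ∀ h ∈ K, a h = h := by
    intro K hK hKc a ha k hk
    obtain ⟨h, hh, hah⟩ := hA' a ha
    have hD : Cen H (K.map Y.subtype) := by
      by_contra hc
      have h1 := m.min (K.map Y.subtype) (Subgroup.map_subtype_le K) (by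
        rw [le_normalizer_iff]
        rintro g hg _ ⟨x, hx, rfl⟩
        obtain ⟨b, hb, hbg⟩ := hA g hg
        refine ⟨b x, ?_, hbg x⟩
        have := (Subgroup.characteristic_iff_map_le.mp hK) b
        exact this (mem_map_of_mem _ hx)) hc
      apply hnab
      intro x hx y hy
      rw [← h1] at hx hy
      obtain ⟨x, hx, rfl⟩ := hx
      obtain ⟨y, hy, rfl⟩ := hy
      have := hKc.is_comm.comm (⟨x, hx⟩ : ↥K) ⟨y, hy⟩
      exact congrArg (fun z : ↥K => ((z : ↥Y) : G)) this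
    ext1
    rw [hah]
    exact hD h hh k (mem_map_of_mem _ hk)
  exact (Cfsg.Agent.S0119.result m.two A hcard hgen hchar).1

/-- Central elements modulo a subgroup, in a nilpotent group. -/
theorem exists_central_mod {P : Type*} [Group P] [hP : Group.IsNilpotent P] (A C : Subgroup P)
    [C.Normal] (h : ¬ C ≤ A) : ∃ x ∈ C, x ∉ A ∧ ∀ g : P, g * x * g⁻¹ * x⁻¹ ∈ A := by
  classical
  have hex : ∃ k, C ⊓ (⊤ : Subgroup P).lowerCentralSeries k ≤ A := by
    obtain ⟨n, hn⟩ := Subgroup.nilpotent_iff_lowerCentralSeries.mp hP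
    exact ⟨n, by rw [hn, inf_bot_eq]; exact bot_le⟩
  obtain ⟨k, hk⟩ : ∃ k, k = Nat.find hex := ⟨_, rfl⟩
  have hkA : C ⊓ (⊤ : Subgroup P).lowerCentralSeries k ≤ A := by rw [hk]; exact Nat.find_spec hex
  rcases k with _ | k
  · exfalso
    apply h
    intro x hx
    apply hkA
    refine mem_inf.mpr ⟨hx, ?_⟩
    rw [Subgroup.lowerCentralSeries_zero]; trivial
  · have hk' : ¬ C ⊓ (⊤ : Subgroup P).lowerCentralSeries k ≤ A := by
      apply Nat.find_min hex
      omega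
    obtain ⟨x, hx, hxA⟩ := SetLike.not_le_iff_exists.mp hk'
    obtain ⟨hxC, hxk⟩ := mem_inf.mp hx
    refine ⟨x, hxC, hxA, fun g => hkA (mem_inf.mpr ⟨?_, ?_⟩)⟩
    · exact C.mul_mem (‹C.Normal›.conj_mem x hxC g) (C.inv_mem hxC)
    · rw [Subgroup.lowerCentralSeries_succ]
      have := Subgroup.commutator_mem_commutator (mem_top g) hxk
      rw [Subgroup.commutator_comm] at this
      exact this

end Cfsg.Agent.H586.OddAct
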